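import Cfsg.Agent.H8.Z.SSCent
import Cfsg.Agent.H7.Coll

/-! Element orders in groups with trivial fundamental group and centre; the case of `G₂`. -/

set_option autoImplicit false
set_option linter.unusedSectionVars false

namespace Cfsg.Agent.H8

open Cfsg.Lie Matrix Cfsg.Agent.H7 Finset

variable {D : ChevalleyDatum} {K : Type*} [Field K] {G : Type*} [Group G] {x : ℕ → K → G} {l : ℕ}
  {w : Equiv.Perm ℕ} {g n : G}

theorem exists_orderOf_of_dvd_z {N m : ℕ} (hN : N ≠ 0) (h : ∃ g : G, orderOf g = N) (hm : m ∣ N) : ∃ g : G, orderOf g = m := by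
  obtain ⟨g, rfl⟩ := h
  exact ⟨_, orderOf_pow_orderOf_div hN hm⟩

theorem mact_pow_of_z {q : ℕ} {M : Matrix (Fin l) (Fin l) ℤ} {a : Fin l → Kˣ} (h : a ^ q = mact M a) (k : ℕ) :
    a ^ q ^ k = mact (M ^ k) a := by
  induction k with
  | zero => simp [mact_one]
  | succ k ih => rw [pow_succ', pow_mul, h, ← map_pow, ih, ← mact_mul, pow_succ]

theorem mact_zero_z (a : Fin l → Kˣ) : mact 0 a = 1 := funext fun _ => torChar_zero a

theorem pow_eq_one_of_span_z {a : Fin l → Kˣ} {v v' : Fin l → ℤ} (h : torChar a v = 1) (h' : torChar a v' = 1) {d : ℕ}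
    (hd : ∀ j, ∃ c c' : ℤ, ∀ i, (if i = j then (d : ℤ) else 0) = c * v i + c' * v' i) : a ^ d = 1 := funext fun j => by
  obtain ⟨c, c', e⟩ := hd j
  have : (d : ℤ) • Pi.single j (1 : ℤ) = c • v + c' • v' := funext fun i => by simp [← e i, Pi.single_apply]
  rw [Pi.pow_apply, ← torChar_single' a j, ← zpow_natCast, ← torChar_smul, this, torChar_add, torChar_smul, torChar_smul, h, h']
  simp

theorem exists_tor_z [IsAlgClosed K] {N q : ℕ} (hN : (N : K) ≠ 0) {M : Matrix (Fin l) (Fin l) ℤ} {m : Fin l → ℤ}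
    (hm : ∀ i, (N : ℤ) ∣ q * m i - (m ᵥ* M) i) {i : Fin l} (hi : m i = 1) :
    ∃ a : Fin l → Kˣ, orderOf a = N ∧ a ^ q = mact M a ∧ ∀ v, (N : ℤ) ∣ m ⬝ᵥ v → torChar a v = 1 := by
  obtain ⟨ζ, h, -⟩ := exists_orderOf hN
  refine ⟨fun i => ζ ^ m i, ?_, ?_, fun v hv => by rwa [torChar_pow, ← orderOf_dvd_iff_zpow_eq_one, h]⟩
  · refine h ▸ orderOf_eq_orderOf_iff.2 fun k => ⟨fun e => by simpa [hi] using congrFun e i, fun e => funext fun j => ?_⟩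
    rw [Pi.pow_apply, ← zpow_natCast, ← _root_.zpow_mul, mul_comm, _root_.zpow_mul, zpow_natCast, e, _root_.one_zpow]; rfl
  · rw [mact_pow]; funext j
    rw [Pi.pow_apply, ← zpow_natCast, ← _root_.zpow_mul, zpow_eq_zpow_iff_modEq, h, mul_comm]
    exact (Int.modEq_iff_dvd.2 (hm j)).symm

variable [hD : RootFacts D]

theorem wM_mem_z (L : List (List (List ℤ))) (h1 : ∃ M ∈ L, ∀ i j : Fin D.rank, (if i = j then 1 else 0) = lm M i j)
    (h : ∀ M ∈ L, ∀ k : Fin D.rank, ∃ M' ∈ L, ∀ i j : Fin D.rank,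
      ∑ m : Fin D.rank, lm M i m * cor D (D.reflectRoot k (D.simple m)) j = lm M' i j) (hw : w ∈ W D) :
    ∃ M ∈ L, wM D w = of fun i j : Fin D.rank => lm M i j := by
  refine W_induction (P := fun w => ∃ M ∈ L, wM D w = of fun i j : Fin D.rank => lm M i j) ?_ (fun k w _ ⟨M, hM, e⟩ => ?_) hw
  · exact h1.imp fun M hM => ⟨hM.1, wM_one.trans (Matrix.ext hM.2)⟩
  · exact (h M hM k).imp fun M' h' => ⟨h'.1, by rw [wM_mul (sref_mem k), e]; exact Matrix.ext h'.2⟩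

variable [hN : NFacts D] [hM : MatFacts D] [hC : ChainFacts D]

theorem sG_refl_z : sG D D K id (fun _ => 1) = D.group K := by
  rw [← GG_xu, sG]; congr 1; funext r t
  unfold embFam; split_ifs with h
  · simp
  · exact (xu_ge (not_lt.1 h) t).symm

theorem exists_umodel_z (h : Unimod D) [IsAlgClosed K] (F : Type*) [Field F] [Fintype F] [Algebra F K] [Algebra.IsAlgebraic F K]
    (p : ℕ) [Fact p.Prime] [CharP F p] : ∃ (φ : sG D D K id (fun _ => 1) →* _) (j : D.group F →* _),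
      Model D (ys D D K id fun _ => 1) φ 1 (Fintype.card F) j ∧ (∀ r, φ (ys D D K id (fun _ => 1) r 1) = ys D D K id (fun _ => 1) r 1) ∧
      ∀ y : D.group F, ∃ w ∈ W D, ∃ a : Fin D.rank → Kˣ, a ^ Fintype.card F = mact (wM D w) a ∧
        ∃ u ∈ XS (ys D D K id fun _ => 1) ({r | D.IsPosRoot r} ∩ RT D a), ∃ k, orderOf u = p ^ k ∧ orderOf y = orderOf a * p ^ k := by
  obtain ⟨-, -, -, -, φ, hφ⟩ := exists_frob_of (K := K) (F := F)
  let e := MulEquiv.subgroupCongr (sG_refl_z (D := D) (K := F)).symm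
  exact ⟨_, _, ((scov_refl h).model hφ).comp e, fun r => by rw [mapS_ys, map_one], fun y => by
    simpa only [e.orderOf_eq] using (scov_refl h).order_decomp_z (K := K) p (e y)⟩

omit hM hC in
theorem _root_.Cfsg.Agent.H7.IsFaith.evT_ne_one_z (hx : IsFaith D x) {t u : K} {m : Tm} {L : List Tm} (h : tmV t u m ≠ 0)
    (h1 : D.IsPosRoot m.a ∧ ∀ m' ∈ L, D.IsPosRoot m'.a ∧ m.a < m'.a) : evT x t u (m :: L) ≠ 1 := fun e =>
  h (hx.top _ h1.1 _ (by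
    rw [evT_cons, mul_eq_one_iff_eq_inv] at e
    rw [e, inv_mem_iff]
    exact list_prod_mem fun g hg => by obtain ⟨m', h2, rfl⟩ := List.mem_map.1 hg; exact x_mem_XS (h1.2 m' h2) _))

omit hD hN hM hC in
theorem evT_pow_z (t u : K) (L : List Tm) (k : ℕ) : evT x t u L ^ k = evT x t u (List.replicate k L).flatten := by
  induction k with
  | zero => simp
  | succ k ih => rw [pow_succ', ih, List.replicate_succ, List.flatten_cons, evT_append]

/-- The order of a unipotent element. -/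
theorem _root_.Cfsg.Agent.H7.IsFaith.orderOf_evT_z (hx : IsFaith D x) (hG : GG x = ⊤) (p : ℕ) [Fact p.Prime] [CharP K p] {T : Fast}
    (hT : Agree D T) (L : List Tm) (c : Fin D.rank → ℤ) (k : ℕ) (S : Set ℕ) (hS : IsClosed D S) (hp : ∀ r ∈ S, D.IsPosRoot r)
    (hc : ∀ r ∈ S, 1 ≤ c ⬝ᵥ wt D r ∧ c ⬝ᵥ wt D r < p ^ (k + 1)) (hL : ∀ m ∈ L, m.a ∈ S) (m : Tm) (L' : List Tm)
    (h : wEq T p (List.replicate (p ^ k) L).flatten (m :: L') = true) (h0 : ¬ (p : ℤ) ∣ m.c)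
    (h1 : D.IsPosRoot m.a ∧ ∀ m' ∈ L', D.IsPosRoot m'.a ∧ m.a < m'.a) : orderOf (evT x 1 1 L) = p ^ (k + 1) := by
  refine orderOf_eq_prime_pow ?_ (hx.pow_eq_one_z hG p hS hp c _ hc (list_prod_mem fun g hg => ?_))
  · rw [evT_pow_z, wEq_sound hT hx.toIsSt (by simp) 1 1 h]
    exact hx.evT_ne_one_z (by simpa [tmV, CharP.intCast_eq_zero_iff K p] using h0) h1
  · obtain ⟨m', h2, rfl⟩ := List.mem_map.1 hg; exact x_mem_XS (hL m' h2) _

/-- The Weyl group of type `G₂`. -/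
def wG2_z : List (List (List ℤ)) := [[[1, 0], [0, 1]], [[-1, 0], [1, 1]], [[1, 3], [0, -1]], [[-1, -3], [1, 2]], [[2, 3], [-1, -1]],
  [[-2, -3], [1, 2]], [[2, 3], [-1, -2]], [[-2, -3], [1, 1]], [[1, 3], [-1, -2]], [[-1, -3], [0, 1]], [[1, 0], [-1, -1]], [[-1, 0], [0, -1]]]

theorem wM_G2_z (hw : w ∈ W chevG2) : ∃ M ∈ wG2_z, wM chevG2 w = of fun i j : Fin chevG2.rank => lm M i j :=
  wM_mem_z wG2_z (by decide +kernel) (by decide +kernel) hw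

theorem torG2_z {q : ℕ} (hq : 1 ≤ q) (hw : w ∈ W chevG2) {a : Fin chevG2.rank → Kˣ} (ha : a ^ q = mact (wM chevG2 w) a) :
    orderOf a ∣ q ^ 2 - 1 ∨ orderOf a ∣ q ^ 2 + q + 1 ∨ orderOf a ∣ q ^ 2 - q + 1 := by
  obtain ⟨M, hM, e⟩ := wM_G2_z hw
  have h2 := mact_pow_of_z ha 2
  rw [e] at ha h2
  have : ∀ M ∈ wG2_z, let N := of fun i j : Fin chevG2.rank => lm M i j
    N ^ 2 = 1 ∨ N ^ 2 + N + 1 = 0 ∨ N ^ 2 + 1 = N := by simp only [pow_two]; decide +kernel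
  refine (this M hM).imp (fun h => ?_) (Or.imp (fun h => ?_) fun h => ?_) <;> rw [orderOf_dvd_iff_pow_eq_one]
  · rw [pow_sub _ (Nat.one_le_pow _ _ hq), h2, h, mact_one]; simp
  · rw [pow_succ, pow_add, h2, ha, ← mact_zero_z a, ← h, mact_add_z, mact_add_z, mact_one]
  · have := congrArg (mact · a) h
    simp only [mact_add_z, mact_one, ← h2, ← ha] at this
    rw [pow_succ, pow_sub _ (Nat.le_self_pow two_ne_zero q), mul_right_comm, this, mul_inv_cancel]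

theorem torG2_z' (p : ℕ) [hp : Fact p.Prime] [CharP K p] {q : ℕ} (hq : 1 ≤ q) (h3 : 3 ∣ q → p = 3) (hw : w ∈ W chevG2)
    {a : Fin chevG2.rank → Kˣ} (ha : a ^ q = mact (wM chevG2 w) a) {r : ℕ} (hr : r < 12) (h : r ∈ RT chevG2 a) :
    orderOf a ∣ q - 1 ∨ orderOf a ∣ q + 1 := by
  obtain ⟨M, hM, e⟩ := wM_G2_z hw
  have h1 : torChar a (wM chevG2 w *ᵥ wt chevG2 r) = 1 := by
    rw [← torChar_mact, ← ha, torChar_npow, show torChar a _ = 1 from h, one_pow]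
  have : ∀ M ∈ wG2_z, ∀ r < 12, (∃ ε ∈ [1, -1], ∀ j : Fin chevG2.rank, ∃ c ∈ [-3, -2, -1, 0, 1, 2, 3], ∀ i : Fin chevG2.rank,
      lm M i j = (if i = j then ε else 0) + c * wt chevG2 r i) ∨ ∀ j : Fin chevG2.rank, ∃ c ∈ [-9, -6, -3, -2, -1, 0, 1, 2, 3, 6, 9],
      ∃ c' ∈ [-9, -6, -3, -2, -1, 0, 1, 2, 3, 6, 9], ∀ i : Fin chevG2.rank, (if i = j then ((3 : ℕ) : ℤ) else 0) =
        c * wt chevG2 r i + c' * ((of fun i j : Fin chevG2.rank => lm M i j) *ᵥ wt chevG2 r) i := by decide +kernel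
  rcases this M hM r hr with ⟨ε, hε, h2⟩ | h2
  · have h4 : a ^ q = a ^ ε := ha.trans (funext fun j => by
      obtain ⟨c, -, hc⟩ := h2 j
      rw [mact_apply, show (fun i => wM chevG2 w i j) = ε • Pi.single j 1 + c • wt chevG2 r from funext fun i => by
        simp [e, hc, Pi.single_apply], torChar_add, torChar_smul, torChar_smul, h, torChar_single']
      simp)
    simp only [orderOf_dvd_iff_pow_eq_one, pow_sub _ hq, pow_succ a, h4]
    simp only [List.mem_cons, List.not_mem_nil, or_false] at hε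
    rcases hε with rfl | rfl <;> simp
  · have h4 := pow_eq_one_of_span_z h (e ▸ h1) fun j => by obtain ⟨c, -, c', -, h⟩ := h2 j; exact ⟨c, c', h⟩
    by_cases h5 : 3 ∣ q
    · obtain rfl := h3 h5
      simp [tor_eq_one_z 3 (k := 1) h4]
    · have := orderOf_dvd_of_pow_eq_one h4
      exact (show 3 ∣ q - 1 ∨ 3 ∣ q + 1 by omega).imp this.trans this.trans

/-- A vector given by a list. -/
def vz_z (l : ℕ) (L : List ℤ) : Fin l → ℤ := fun i => L.getD i 0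

theorem unipG2_z (hx : IsSC chevG2 x) (p : ℕ) [hp : Fact p.Prime] [CharP K p] {a : Fin chevG2.rank → Kˣ}
    (hg : g ∈ XS x ({r | chevG2.IsPosRoot r} ∩ RT chevG2 a)) : g ^ p = 1 ∨ (p = 2 ∧ a ^ 3 = 1 ∧ g ^ 4 = 1) ∨
      (a = 1 ∧ ((p = 2 ∧ g ^ 8 = 1) ∨ ((p = 3 ∨ p = 5) ∧ g ^ p ^ 2 = 1))) := by
  have h0 := fun c k h => hx.pow_eq_one_z hx.gen p (isClosed_pos.inter (isClosed_RT a)) (fun _ h => h.1) c k h hg
  have h2 := hp.out.two_le
  have h3 : a = 1 → g ^ p = 1 ∨ (p = 2 ∧ a ^ 3 = 1 ∧ g ^ 4 = 1) ∨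
      (a = 1 ∧ ((p = 2 ∧ g ^ 8 = 1) ∨ ((p = 3 ∨ p = 5) ∧ g ^ p ^ 2 = 1))) := fun h => by
    have h4 := fun k (h : 5 < p ^ k) => h0 (vz_z _ [3, 5]) k fun r hr => ((show ∀ r < 12, chevG2.IsPosRoot r →
      1 ≤ vz_z _ [3, 5] ⬝ᵥ wt chevG2 r ∧ vz_z _ [3, 5] ⬝ᵥ wt chevG2 r ≤ 5 by decide +kernel) r hr.1.1 hr.1).imp_right
        fun h' => h'.trans_lt (by exact_mod_cast h)
    by_cases h5 : p ≤ 5
    · interval_cases p
      · exact Or.inr (Or.inr ⟨h, Or.inl ⟨rfl, h4 3 (by norm_num)⟩⟩)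
      · exact Or.inr (Or.inr ⟨h, Or.inr ⟨by simp, h4 2 (by norm_num)⟩⟩)
      · exact absurd hp.out (by norm_num)
      · exact Or.inr (Or.inr ⟨h, Or.inr ⟨by simp, h4 2 (by norm_num)⟩⟩)
    · exact Or.inl (by simpa using h4 1 (by simpa using h5))
  have h4 : ∀ r s d, r ∈ RT chevG2 a → s ∈ RT chevG2 a → (∀ j : Fin chevG2.rank, ∃ c ∈ [-3, -2, -1, 0, 1, 2, 3],
      ∃ c' ∈ [-3, -2, -1, 0, 1, 2, 3], ∀ i : Fin chevG2.rank, (if i = j then ((d : ℕ) : ℤ) else 0) =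
        c * wt chevG2 r i + c' * wt chevG2 s i) → a ^ d = 1 := fun r s d hr hs h =>
    pow_eq_one_of_span_z hr hs fun j => by obtain ⟨c, -, c', -, h⟩ := h j; exact ⟨c, c', h⟩
  by_cases h5 : ∃ r ∈ [6, 8, 9, 10], r ∈ RT chevG2 a
  swap
  · refine Or.inl (pow_one p ▸ h0 (vz_z _ [1, 1]) 1 fun r hr => ?_)
    rw [(show ∀ r < 12, chevG2.IsPosRoot r → r ∉ [6, 8, 9, 10] → vz_z _ [1, 1] ⬝ᵥ wt chevG2 r = 1 by decide +kernel) r hr.1.1
      hr.1 fun h => h5 ⟨r, h, hr.2⟩]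
    simpa using hp.out.one_lt
  obtain ⟨s, h5, hs⟩ := h5
  by_cases h7 : 7 ∈ RT chevG2 a
  · refine h3 (pow_one a ▸ h4 7 s 1 h7 hs ?_)
    clear hs; revert s; decide +kernel
  have h8 : ∀ r ∈ {r | chevG2.IsPosRoot r} ∩ RT chevG2 a, vz_z _ [1, 2] ⬝ᵥ wt chevG2 r = 1 ∨
      r = 11 ∧ vz_z _ [1, 2] ⬝ᵥ wt chevG2 r = 2 := fun r hr => (show ∀ r < 12, chevG2.IsPosRoot r → r ≠ 7 →
        vz_z _ [1, 2] ⬝ᵥ wt chevG2 r = 1 ∨ r = 11 ∧ vz_z _ [1, 2] ⬝ᵥ wt chevG2 r = 2 by decide +kernel) r hr.1.1 hr.1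
      fun e => h7 (e ▸ hr.2)
  by_cases h9 : p = 2 ∧ 11 ∈ RT chevG2 a
  · obtain ⟨rfl, h9⟩ := h9
    refine Or.inr (Or.inl ⟨rfl, h4 11 s 3 h9 hs ?_, h0 (vz_z _ [1, 2]) 2 fun r hr => by
      rcases h8 r hr with h | ⟨-, h⟩ <;> simp [h]⟩)
    clear hs; revert s; decide +kernel
  · refine Or.inl (pow_one p ▸ h0 (vz_z _ [1, 2]) 1 fun r hr => ?_)
    rcases h8 r hr with h | ⟨rfl, h⟩ <;> rw [h]
    · simpa using hp.out.one_lt
    · have : p ≠ 2 := fun e => h9 ⟨e, hr.2⟩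
      simp; omega

variable {F : Type*} [Field F] [Fintype F]

theorem orderG2_dvd_z (p : ℕ) [hp : Fact p.Prime] [CharP F p] {q : ℕ} (hq : Fintype.card F = q) (y : chevG2.group F) :
    orderOf y ∣ p * (q + 1) ∨ orderOf y ∣ p * (q - 1) ∨ orderOf y ∣ q ^ 2 - 1 ∨ orderOf y ∣ q ^ 2 + q + 1 ∨
      orderOf y ∣ q ^ 2 - q + 1 ∨ (p = 2 ∧ (orderOf y ∣ 8 ∨ orderOf y ∣ 12)) ∨ ((p = 3 ∨ p = 5) ∧ orderOf y ∣ p ^ 2) := by
  subst hq
  have := charP_of_injective_algebraMap (algebraMap F (AlgebraicClosure F)).injective p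
  obtain ⟨φ, j, h, -, h1⟩ := exists_umodel_z (K := AlgebraicClosure F) unimodG2 F p
  obtain ⟨w, hw, a, ha, u, hu, k, h2, h3⟩ := h1 y
  rw [h3, ← h2]
  by_cases h4 : ∃ r < 12, r ∈ RT chevG2 a
  · obtain ⟨r, hr, h4⟩ := h4
    obtain ⟨n, -, h5⟩ := FiniteField.card F p
    rcases unipG2_z h.sc p hu with h6 | ⟨h6, h7, h8⟩ | ⟨rfl, h6⟩
    · rw [← orderOf_dvd_iff_pow_eq_one] at h6
      rcases torG2_z' p Fintype.card_pos (fun h7 => ((Nat.prime_dvd_prime_iff_eq Nat.prime_three hp.out).1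
        (Nat.prime_three.dvd_of_dvd_pow (h5 ▸ h7))).symm) hw ha hr h4 with h7 | h7
      · exact Or.inr (Or.inl (mul_comm p _ ▸ mul_dvd_mul h7 h6))
      · exact Or.inl (mul_comm p _ ▸ mul_dvd_mul h7 h6)
    · have := mul_dvd_mul (orderOf_dvd_of_pow_eq_one h7) (orderOf_dvd_of_pow_eq_one h8)
      tauto
    · simp only [← orderOf_dvd_iff_pow_eq_one] at h6
      rw [orderOf_one, one_mul]; tauto
  · rw [Subgroup.mem_bot.1 (XS_le.2 (fun r hr => absurd ⟨r, hr.1.1, hr.2⟩ h4) hu), orderOf_one, mul_one]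
    have := torG2_z Fintype.card_pos hw ha
    tauto

theorem exists_torG2_z [IsAlgClosed K] {N q : ℕ} (hN : (N : K) ≠ 0) (a b c d m : ℤ)
    (h : ∀ i j : Fin chevG2.rank, cor chevG2 (w (chevG2.simple i)) j = lm [[a, b], [c, d]] i j) (h1 : (N : ℤ) ∣ q - (a + m * c))
    (h2 : (N : ℤ) ∣ q * m - (b + m * d)) : ∃ t : Fin chevG2.rank → Kˣ, orderOf t = N ∧ t ^ q = mact (wM chevG2 w) t ∧
      ∀ r, (N : ℤ) ∣ chevG2.cartan 0 r + m * chevG2.cartan 1 r → r ∈ RT chevG2 t := by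
  obtain ⟨t, h3, h4, h5⟩ := exists_tor_z (l := 2) (q := q) hN (M := !![a, b; c, d]) (m := ![1, m]) (i := 0)
    (by simpa [Fin.forall_fin_two, vecMul, dotProduct] using ⟨h1, h2⟩) rfl
  have : wM chevG2 w = !![a, b; c, d] := Matrix.ext fun i j => (h i j).trans (by fin_cases i <;> fin_cases j <;> rfl)
  exact ⟨t, h3, this ▸ h4, fun r hr => h5 _ (by simpa [dotProduct, wt] using! hr)⟩

theorem Model.g2_twelve_z [IsAlgClosed K] [CharP K 2] {φ : G →* G} {q : ℕ} {G₀ : Type*} [Group G₀] {j : G₀ →* G}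
    (h : Model chevG2 x φ 1 q j) (h1 : ∀ r, φ (x r 1) = x r 1) (hq : q % 3 ≠ 0) : ∃ y : G₀, orderOf y = 12 := by
  have hs := h.sc.toIsSt
  have h8 : ((3 : ℕ) : K) ≠ 0 := by rw [Ne, CharP.cast_eq_zero_iff K 2]; decide
  let i : Fin chevG2.rank := ⟨0, by decide⟩
  obtain ⟨t, h9, h10, h11⟩ := exists_torG2_z (q := 2) h8 (-1) 0 1 1 0 (w := sref chevG2 i) (by decide +kernel)
    (by simp) (by simp)
  have h12 := h.sc.orderOf_evT_z h.sc.gen 2 (agree_of_check smallG2 chainG2 ltG2) [⟨6, 1, 0, 1⟩, ⟨10, 0, 1, 1⟩] (vz_z _ [1, 2]) 1 _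
    (isClosed_pos.inter (isClosed_pos.preimage (sref_mem i))) (fun _ h => h.1) (fun r hr => (show ∀ r < 12, chevG2.IsPosRoot r →
      chevG2.IsPosRoot (chevG2.reflectRoot 0 r) → 1 ≤ vz_z _ [1, 2] ⬝ᵥ wt chevG2 r ∧ vz_z _ [1, 2] ⬝ᵥ wt chevG2 r < 4 by
        decide +kernel) r hr.1.1 hr.1 hr.2) (by simp only [Set.mem_inter_iff, Set.mem_preimage, Set.mem_ofPred_eq]; decide +kernel)
    ⟨11, 1, 1, 1⟩ [] (by decide +kernel) (by decide) (by decide +kernel)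
  simp only [evT_cons, evT_nil, tmV, Int.cast_one, one_pow, mul_one] at h12
  have h13 := fun r h => hs.commute_RT (S := {r}) (Set.singleton_subset_iff.2 (h11 r h)) (x_mem_XS (Set.mem_singleton r) 1)
  have h14 := h13 6 (by decide +kernel)
  have h15 := (h14.mul_left (h13 10 (by decide +kernel))).symm
  refine (h.exists_orderOf_z (g := hProd chevG2 x t * (x 6 1 * x 10 1)) ?_).imp fun y hy => hy.trans (by
    rw [h15.orderOf_mul_eq_mul_orderOf_of_coprime] <;> rw [h.sc.orderOf_hProd_z, h9, h12] <;> norm_num)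
  rw [map_mul, map_mul, h1, h1, (h.tor t (t ^ q)).2 (mact_one _).symm, ← pow_mod_orderOf, h9]
  rcases (show q % 3 = 1 ∨ q % 3 = 2 by omega) with e | e <;> rw [e]
  · rw [pow_one]
  have h19 : ∀ r, nE chevG2 x (chevG2.simple i) 1 * x r 1 * (nE chevG2 x (chevG2.simple i) 1)⁻¹ = x (sref chevG2 i r) 1 :=
    fun r => (hs.acts_nE_simple i one_ne_zero r 1).trans (by
      rcases etaS_cases i r with h | h <;> simp only [h, _root_.one_zpow, mul_one, Int.cast_neg, Int.cast_one, CharTwo.neg_eq])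
  refine (isConj_iff.2 ⟨nE chevG2 x (chevG2.simple i) 1, rfl⟩).trans (isConj_iff.2 ⟨x 6 1, ?_⟩)
  rw [← conj_mul (a := hProd _ _ _), ← conj_mul (a := x 6 1), h19, h19, (NRep.simple x i).conj_hProd hs h.sc.r3, ← h10,
    show sref chevG2 i 10 = 6 by decide +kernel, show sref chevG2 i 6 = 10 by decide +kernel, ← conj_mul,
    hProd_pow hs h.sc.r3, (h14.pow_right 2).mul_inv_cancel, ← mul_assoc (x 6 1), mul_inv_cancel_right]

theorem orderG2_exists_z (p : ℕ) [hp : Fact p.Prime] [CharP F p] {q : ℕ} (hq : Fintype.card F = q) {N : ℕ}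
    (hN : N = p * (q + 1) ∨ N = p * (q - 1) ∨ N = q ^ 2 - 1 ∨ N = q ^ 2 + q + 1 ∨ N = q ^ 2 - q + 1 ∨
      (p = 2 ∧ (N = 8 ∨ N = 12)) ∨ ((p = 3 ∨ p = 5) ∧ N = p ^ 2)) : ∃ y : chevG2.group F, orderOf y = N := by
  let K := AlgebraicClosure F
  have := charP_of_injective_algebraMap (algebraMap F K).injective p
  obtain ⟨φ, j, h, h1, -⟩ := exists_umodel_z (K := K) unimodG2 F p
  have h0 : (q : K) = 0 := by rw [← hq, ← map_natCast (algebraMap F K), FiniteField.cast_card_eq_zero, map_zero]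
  have h2 : 1 ≤ q := hq ▸ Fintype.card_pos
  have h3 := Nat.one_le_pow 2 q h2
  have h4 := Nat.le_self_pow two_ne_zero q
  rw [hq] at h
  have hT := agree_of_check smallG2 chainG2 ltG2
  have w₀ := sref_mem (D := chevG2) ⟨0, by decide⟩
  have w₁ := mul_mem (sref_mem ⟨1, by decide⟩) w₀
  have h5 : ∀ {w} {N : ℕ}, w ∈ W chevG2 → (∃ t : Fin chevG2.rank → Kˣ, orderOf t = N ∧ t ^ q = mact (wM chevG2 w) t ∧ True) →
      ∃ y : chevG2.group F, orderOf y = N := fun hw ⟨a, h5, h6, _⟩ => h5 ▸ h.exists_orderOf_tor_z hw (by rwa [mul_one])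
  have h6 : ∀ {w} {N : ℕ}, w ∈ W chevG2 → w 11 = 11 → (∃ t : Fin chevG2.rank → Kˣ, orderOf t = N ∧
      t ^ q = mact (wM chevG2 w) t ∧ ∀ r, (N : ℤ) ∣ chevG2.cartan 0 r + 0 * chevG2.cartan 1 r → r ∈ RT chevG2 t) →
      ∃ y : chevG2.group F, orderOf y = p * N := fun hw h7 ⟨a, h5, h6, h8⟩ => h5 ▸ mul_comm p _ ▸
    h.exists_orderOf_mul_z p h0 hw h6 (by decide) (h8 _ (by rw [show chevG2.cartan 0 11 = 0 by decide +kernel]; simp)) h7 (h1 _)
  have hx := isChev_xg (D := chevG2) (K := F)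
  have h7 := fun k h => hx.orderOf_evT_z GG_xg p hT [⟨7, 1, 0, 1⟩, ⟨6, 0, 1, 1⟩] (vz_z _ [3, 5]) k _ isClosed_pos (fun _ h => h)
    (fun r hr => ((show ∀ r < 12, chevG2.IsPosRoot r →
      1 ≤ vz_z _ [3, 5] ⬝ᵥ wt chevG2 r ∧ vz_z _ [3, 5] ⬝ᵥ wt chevG2 r ≤ 5 by decide +kernel) r hr.1 hr).imp_right
        fun h' => h'.trans_lt h) (by simp only [Set.mem_ofPred_eq]; decide +kernel)
  rcases hN with rfl | rfl | rfl | rfl | rfl | ⟨rfl, rfl | rfl⟩ | ⟨rfl | rfl, rfl⟩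
  · exact h6 w₀ (by decide +kernel) (exists_torG2_z (by simp [h0]) (-1) 0 1 1 0 (by decide +kernel) (by simp) (by simp))
  · exact h6 (one_mem _) rfl (exists_torG2_z (by simp [h0, h2]) 1 0 0 1 0 (by decide +kernel) (by simp [h2]) (by simp))
  · exact h5 w₀ ((exists_torG2_z (by simp [h0, h3]) (-1) 0 1 1 (q + 1) (by decide +kernel) (by simp)
      ⟨1, by simp [h3]; ring⟩).imp fun _ h => ⟨h.1, h.2.1, trivial⟩)
  · exact h5 (mul_mem w₁ w₁) ((exists_torG2_z (by simp [h0]) (-2) (-3) 1 1 (q + 2) (by decide +kernel) (by simp)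
      ⟨1, by simp; ring⟩).imp fun _ h => ⟨h.1, h.2.1, trivial⟩)
  · exact h5 w₁ ((exists_torG2_z (by simp [h0, h4]) (-1) (-3) 1 2 (q + 1) (by decide +kernel) (by simp)
      ⟨1, by simp [h4]; ring⟩).imp fun _ h => ⟨h.1, h.2.1, trivial⟩)
  · exact ⟨_, h7 2 (by norm_num) ⟨11, 3, 2, 1⟩ [] (by decide +kernel) (by decide) (by decide +kernel)⟩
  · obtain ⟨n, -, h16⟩ := FiniteField.card F 2
    exact h.g2_twelve_z h1 fun e => absurd (Nat.prime_three.dvd_of_dvd_pow (h16 ▸ hq ▸ Nat.dvd_of_mod_eq_zero e)) (by decide)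
  · exact ⟨_, h7 1 (by norm_num) ⟨9, 2, 1, 2⟩ [⟨11, 3, 2, 2⟩] (by decide +kernel) (by decide) (by decide +kernel)⟩
  · exact ⟨_, h7 1 (by norm_num) ⟨11, 3, 2, 3⟩ [] (by decide +kernel) (by decide) (by decide +kernel)⟩

end Cfsg.Agent.H8
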