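import Cfsg.Agent.H8.Z.SSConj
import Cfsg.Agent.H8.CycTor

/-! Unipotent elements in centralizers of semisimple elements; element orders. -/

set_option autoImplicit false
set_option linter.unusedSectionVars false

namespace Cfsg.Agent.H8

open Cfsg.Lie Matrix Cfsg.Agent.H7 Finset

variable {D : ChevalleyDatum} {K : Type*} [Field K] {G : Type*} [Group G] {x : ℕ → K → G} {l : ℕ}
  {w : Equiv.Perm ℕ} {g n : G} [hD : RootFacts D]

theorem isClosed_htGe_z {S : Set ℕ} (hS : IsClosed D S) (hp : ∀ r ∈ S, D.IsPosRoot r) (m : ℕ) :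
    IsClosed D (htGe S (1 : Equiv.Perm ℕ) m) := fun r hr s hs k hk i j hi hj e =>
  ⟨hS r hr.1 s hs.1 k hk i j hi hj e, hr.2.trans (pos_comb (hp r hr.1) (hp s hs.1) hi hj e).2.1.le⟩

section mat

variable [hM : MatFacts D] [hC : ChainFacts D] [hN : NFacts D]

theorem eq_one_of_entry_z {S : Set ℕ} (hS : IsClosed D S) (hp : ∀ r ∈ S, D.IsPosRoot r) {g : GL D.Idx K}
    (hg : g ∈ XS (xu D K) S) (h : ∀ r (hr : r ∈ S) i, g.1 (Sum.inl i) (Sum.inr ⟨D.neg r, neg_lt (hp r hr).1⟩) = 0) : g = 1 := by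
  have hN := (isChev_xu (D := D) (F := K)).toIsSt.nilFam hS (one_mem _) hp
  have key : ∀ m, g ∈ XS (xu D K) (htGe S (1 : Equiv.Perm ℕ) m) := fun m => by
    induction m with
    | zero => exact XS_mono _ (fun r hr => mem_htGe hr (Nat.zero_le _)) hg
    | succ m ih =>
      by_cases hm : m ∈ S
      swap
      · exact XS_mono _ (fun r hr => mem_htGe hr.1 (lt_of_le_of_ne hr.2 fun e => hm ((show m = r from e) ▸ hr.1))) ih
      obtain ⟨t, z, hz, rfl⟩ := hN.split hm ih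
      have h0 := pos_iff'.1 (hp m hm)
      have h1 := raises_XS (ordL D) (m := ordv D m + 1) (by omega)
        (fun j hj => by rw [ordL_wt]; exact ordv_lt hj.2 (hp j hj.1).1) hz
      have h2 := raises_x (ordL D) (m := 1) (r := m) h0.le h0 t
      obtain rfl : t = 0 := eq_zero_of_cor (hp m hm).1 fun i => by
        rw [← h m hm i, Units.val_mul, mul_apply, sum_eq_single (Sum.inr ⟨D.neg m, neg_lt (hp m hm).1⟩) _ (by simp),
          h1 _ _ (by omega), one_apply_eq, mul_one, xu_val, x_entry_h_neg (hp m hm).1]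
        intro c _ hc
        by_cases h3 : ordL D (wtI D c) < 1
        · rw [h1 c _ (by simpa [wtI, ordL_wt, ordv_neg (hp m hm).1] using h3), one_apply_ne hc, mul_zero]
        · rw [xu_val, h2 _ c (by simp only [wtI, Sum.elim_inl, map_zero] at h3 ⊢; omega), one_apply_ne, zero_mul]
          rintro rfl; simp [wtI] at h3
      rwa [hN.zero hm, one_mul]
  exact Subgroup.mem_bot.1 (XS_le.2 (fun r hr => absurd (hp r hr.1).1 (not_lt.2 hr.2)) (key D.nroots))

omit hD hM hC hN in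
theorem Raises.pow_sub_z {ι : Type*} [Fintype ι] [DecidableEq ι] {f : ι → ℤ} {M : Matrix ι ι K} (h : Raises f 1 M) (N : ℕ) :
    ∀ c b, f c < f b + N → ((M - 1) ^ N) c b = 0 := by
  induction N with
  | zero => exact fun c b hc => one_apply_ne fun e => by simp [e] at hc
  | succ N ih =>
    refine fun c b hc => by
      rw [pow_succ, mul_apply]
      refine sum_eq_zero fun a _ => ?_
      by_cases h1 : f a < f b + 1
      · rw [Matrix.sub_apply, h a b h1, sub_self, mul_zero]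
      · rw [ih c a (by push_cast at hc; omega), zero_mul]

/-- A bound for the exponent of a unipotent subgroup. -/
theorem _root_.Cfsg.Agent.H7.IsFaith.pow_eq_one_z (hx : IsFaith D x) (hG : GG x = ⊤) (p : ℕ) [Fact p.Prime] [CharP K p]
    {S : Set ℕ} (hS : IsClosed D S) (hp : ∀ r ∈ S, D.IsPosRoot r) (c : Fin D.rank → ℤ) (k : ℕ)
    (h : ∀ r ∈ S, 1 ≤ c ⬝ᵥ wt D r ∧ c ⬝ᵥ wt D r < p ^ k) (hg : g ∈ XS x S) : g ^ p ^ k = 1 := by
  classical
  have hy := isChev_xu (D := D) (F := K)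
  obtain ⟨θ, hθ⟩ := hx.exists_hom hG hy.toIsSt fun g hg => hy.eq_one_of_commute hg
  have h1 : θ g ∈ XS (xu D K) S := by simpa only [map_XS, hθ] using Subgroup.mem_map_of_mem θ hg
  have h2 : θ (g ^ p ^ k) = 1 := map_pow θ g _ ▸ eq_one_of_entry_z hS hp (pow_mem h1 _) fun r hr i => by
    have := Nonempty.intro (Sum.inl i : D.Idx)
    have h3 := Raises.pow_sub_z (raises_XS (dotProductBilin ℤ ℤ c) one_pos (fun r hr => (h r hr).1) h1) (p ^ k) (Sum.inl i)
      (Sum.inr ⟨D.neg r, neg_lt (hp r hr).1⟩) (by simpa [wtI, wt_neg (hp r hr).1] using (h r hr).2)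
    rw [sub_pow_char_pow_of_commute _ _ (Commute.one_right _), one_pow] at h3
    simpa using h3
  have hL : ∀ k, k ∈ ((posF D).filter (· ∈ S)).toList ↔ k ∈ S := fun k => by simpa [mem_posF] using hp k
  obtain ⟨f, hf⟩ := hx.toIsSt.exists_oprod hS (one_mem _) hp hL (nodup_toList _) (pow_mem hg (p ^ k))
  have h3 := fun k hk => (hL k).1 hk
  rw [hf, map_oprod, ← (hy.toIsSt.nilFam hS (one_mem _) hp).oprod_zero h3] at h2
  simp only [hθ] at h2
  rw [hf, oprod_congr x (oprod_inj_pos hy.toIsFaith (fun k hk => hp k (h3 k hk)) (nodup_toList _) h2),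
    (hx.toIsSt.nilFam hS (one_mem _) hp).oprod_zero h3]

end mat

variable [hN : NFacts D]

theorem _root_.Cfsg.Agent.H7.IsFaith.pos_of_conj_x_z (hx : IsFaith D x) (hn : NRep D x n w) {v : G} (hv : v ∈ UU D x) {r : ℕ}
    (hr : D.IsPosRoot r) (h : n * (v * x r 1 * v⁻¹) * n⁻¹ ∈ BB D x) : ¬ D.IsNegRoot (w r) := fun h0 => by
  have hF := hx.toIsSt.nilFam isClosed_pos (one_mem _) fun _ h => h
  have h1 := hx.mem_Up_of_conj hn (mul_mem (mul_mem hv (x_mem_UU x hr 1)) (inv_mem hv)) h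
  have h2 := hx.mem_XS_inter (one_mem _) (isClosed_htGe_z isClosed_pos (fun _ h => h) r)
    (isClosed_pos.inter (isClosed_pos.preimage hn.mem_W)) (fun _ h => h.1) (fun _ h => h.1)
    (hF.conj_mem r hv (x_mem_XS (mem_htGe hr le_rfl) 1)) h1
  have h3 := XS_mono x (T := htGe {r | D.IsPosRoot r} (1 : Equiv.Perm ℕ) (r + 1)) (fun k hk => mem_htGe hk.1.1
    (lt_of_le_of_ne hk.1.2 fun e => not_neg_of_pos hk.2.2 (by rwa [show r = k from e] at h0))) h2
  exact one_ne_zero (hx.top r hr 1 (by simpa [mul_assoc] using! mul_mem h3 (inv_mem (hF.comm_mem hr 1 (inv_mem hv)))))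

theorem IsSC.isPGroup_UU_z' [MatFacts D] [ChainFacts D] (hx : IsSC D x) (p : ℕ) [hp : Fact p.Prime] [CharP K p] :
    IsPGroup p (UU D x) := fun u => ⟨∑ r ∈ range D.nroots, (ordv D r).toNat, Subtype.ext
  (hx.pow_eq_one_z hx.gen p isClosed_pos (fun _ h => h) (ordc D) _ (fun r hr => ⟨pos_iff'.1 hr, by
    have h1 := single_le_sum (f := fun r => (ordv D r).toNat) (fun _ _ => Nat.zero_le _) (mem_range.2 hr.1)
    exact (Int.self_le_toNat _).trans_lt (by exact_mod_cast h1.trans_lt (Nat.lt_pow_self hp.out.one_lt))⟩) u.2)⟩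

/-- Elements of `p`-power order centralizing a diagonal element. -/
theorem IsSC.exists_conj_RT_z [MatFacts D] [ChainFacts D] (hx : IsSC D x) (p : ℕ) [hp : Fact p.Prime] [CharP K p]
    {a : Fin D.rank → Kˣ} (ha : IsOfFinOrder a) (H : Subgroup G) [Finite H] (hH : ∀ r, x r 1 ∈ H) (hg : g ∈ H) {k : ℕ}
    (h : g ^ p ^ k = 1) (hc : Commute g (hProd D x a)) :
    ∃ y, Commute y (hProd D x a) ∧ y * g * y⁻¹ ∈ XS x ({r | D.IsPosRoot r} ∩ RT D a) := by
  have hs := hx.toIsSt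
  let C := H ⊓ Subgroup.centralizer {hProd D x a}
  have : Finite C := Finite.of_injective _ (Subgroup.inclusion_injective (inf_le_left : C ≤ H))
  let U := XS x ({r | D.IsPosRoot r} ∩ RT D a)
  have hU : U ≤ UU D x := XS_mono x Set.inter_subset_left
  have h1 : IsPGroup p (U.subgroupOf C) := ((hx.isPGroup_UU_z' p).to_le hU).comap_subtype
  let P : Sylow p C := ⟨U.subgroupOf C, h1, fun {Q} hQ hUQ => by
    by_contra hne
    have hnil : Group.IsNilpotent Q := hQ.isNilpotent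
    have hlt : (U.subgroupOf C).subgroupOf Q < ⊤ := by
      rw [lt_top_iff_ne_top, Ne, Subgroup.subgroupOf_eq_top]
      exact fun h => hne (le_antisymm h hUQ)
    obtain ⟨g, hg1, hg2⟩ := SetLike.exists_of_lt (Group.normalizerCondition_of_isNilpotent _ hlt)
    rw [← Subgroup.subgroupOf_normalizer_eq hUQ, Subgroup.mem_subgroupOf] at hg1
    obtain ⟨j, hj⟩ := hQ g
    replace hj : g.1.1 ^ p ^ j = 1 := congrArg (fun z : Q => z.1.1) hj
    obtain ⟨w, hw, u, hu, n, hn, v, hv, e, h2⟩ := hx.conj_decomp (hx.gen.ge (Subgroup.mem_top g.1.1))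
      (Commute.mul_inv_cancel (Subgroup.mem_centralizer_singleton_iff.1 g.1.2.2))
    rw [hn.conj_hProd hs hx.r3] at h2
    have hv' : v ∈ U := XS_mono x (fun _ h => And.intro h.1.1 h.2) hv
    obtain rfl := eq_one_of_mact ha hw (hx.hP_inj h2) fun r h3 h4 => hx.pos_of_conj_x_z hn (hU hv') h4 (by
      have h5 : x r 1 ∈ U := x_mem_XS (And.intro h4 h3) 1
      have h6 : g.1.1 * x r 1 * g.1.1⁻¹ ∈ U := (Subgroup.mem_normalizer_iff.1 hg1 ⟨x r 1, hH r,
        Subgroup.mem_centralizer_singleton_iff.2 (hs.commute_RT Set.inter_subset_right h5)⟩).1 h5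
      rw [e] at h6
      simpa [mul_assoc] using UU_le_BB x (hU (mul_mem (mul_mem (inv_mem hu) h6) hu)))
    have h3 := hn.mem_HH hs
    have h4 := IsFaith.BB_pow hs (mul_mem (hU hu) (hs.HH_conj_XS h3 (hU hv'))) h3 (p ^ j)
    rw [mul_assoc u, inv_mul_cancel_right, ← mul_assoc, ← e, hj, one_mul] at h4
    have h5 := inv_eq_one.1 (hx.eq_one_of_UU_HH h4 (inv_mem (pow_mem h3 _)))
    obtain ⟨b, rfl⟩ := hs.exists_hProd hx.r3 h3
    rw [← hProd_pow hs hx.r3] at h5
    rw [tor_eq_one_z p (hx.inj _ h5), hProd_one hs hx.r3, mul_one] at e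
    exact hg2 (show g.1.1 ∈ U from e ▸ mul_mem hu hv')⟩
  let g' : C := ⟨g, hg, Subgroup.mem_centralizer_singleton_iff.2 hc⟩
  obtain ⟨Q, hQ⟩ := (show IsPGroup p (Subgroup.zpowers g') from fun ⟨_, j, rfl⟩ => ⟨k, Subtype.ext (Subtype.ext (by
    show (g ^ j) ^ p ^ k = 1
    rw [← zpow_natCast, ← _root_.zpow_mul, mul_comm j, _root_.zpow_mul, zpow_natCast, h, _root_.one_zpow]))⟩).exists_le_sylow
  obtain ⟨y, hy⟩ := MulAction.exists_smul_eq C Q P
  have h2 : y * g' * y⁻¹ ∈ P := hy ▸ Subgroup.smul_mem_pointwise_smul g' (MulAut.conj y) _ (hQ (Subgroup.mem_zpowers g'))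
  exact ⟨y, Subgroup.mem_centralizer_singleton_iff.1 y.2.2, h2⟩

omit hD hN in
theorem exists_finite_GL_z {ι F : Type*} [Fintype ι] [DecidableEq ι] [Field F] [Finite F] [Algebra F K] [Algebra.IsAlgebraic F K]
    (g : GL ι K) : ∃ L : Subfield K, Finite L ∧ g ∈ (GeneralLinearGroup.map L.subtype).range := by
  let S : Set K := Set.range (fun p : ι × ι => g.1 p.1 p.2) ∪ Set.range fun p : ι × ι => g.2 p.1 p.2
  have : Finite S := ((Set.finite_range _).union (Set.finite_range _)).to_subtype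
  have := IntermediateField.finiteDimensional_adjoin (K := F) (S := S) fun t _ => Algebra.IsIntegral.isIntegral t
  let L := (IntermediateField.adjoin F S).toSubfield
  let A : Matrix ι ι L := fun i j => ⟨g.1 i j, IntermediateField.subset_adjoin F S (Or.inl ⟨(i, j), rfl⟩)⟩
  let B : Matrix ι ι L := fun i j => ⟨g.2 i j, IntermediateField.subset_adjoin F S (Or.inr ⟨(i, j), rfl⟩)⟩
  have h : Function.Injective (L.subtype.mapMatrix (m := ι)) := Matrix.map_injective Subtype.val_injective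
  exact ⟨L, Module.finite_of_finite F (M := IntermediateField.adjoin F S), ⟨A, B, h (by rw [map_mul, map_one]; exact g.3),
    h (by rw [map_mul, map_one]; exact g.4)⟩, rfl⟩

variable {φ : G →* G} {P : Matrix (Fin D.rank) (Fin D.rank) ℤ} {q : ℕ} {G₀ : Type*} [Group G₀] {j : G₀ →* G}

theorem Model.exists_of_isConj_z (h : Model D x φ P q j) (hg : IsConj g (φ g)) : ∃ y, IsConj (j y) g := by
  obtain ⟨c, hc⟩ := isConj_iff.1 hg.symm
  obtain ⟨z, hz⟩ := h.lang c
  obtain ⟨y, hy⟩ := (h.fix (z * g * z⁻¹)).2 (by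
    rw [map_mul, map_mul, map_inv, eq_mul_of_inv_mul_eq hz]
    conv_rhs => rw [← hc]
    group)
  exact ⟨y, isConj_iff.2 ⟨z⁻¹, by rw [hy]; group⟩⟩

theorem Model.exists_orderOf_z (h : Model D x φ P q j) (hg : IsConj g (φ g)) : ∃ y : G₀, orderOf y = orderOf g :=
  (h.exists_of_isConj_z hg).imp fun y hy => (orderOf_injective j h.inj y).symm.trans (isConj_orderOf_z hy)

theorem Model.exists_orderOf_tor_z (h : Model D x φ P q j) (hw : w ∈ W D) {a : Fin D.rank → Kˣ}
    (ha : a ^ q = mact (wM D w * P) a) : ∃ y : G₀, orderOf y = orderOf a :=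
  (h.exists_isConj_z hw ha).imp fun y hy =>
    (orderOf_injective j h.inj y).symm.trans ((isConj_orderOf_z hy).trans (h.sc.orderOf_hProd_z a))

theorem _root_.Cfsg.Agent.H7.IsFaith.orderOf_x_z (hx : IsFaith D x) (p : ℕ) [hp : Fact p.Prime] [CharP K p] {r : ℕ}
    (hr : r < D.nroots) : orderOf (x r 1) = p := orderOf_eq_prime (by
    have : ∀ k : ℕ, x r 1 ^ k = x r k := fun k => by
      induction k with
      | zero => simp [hx.toIsSt.zero]
      | succ k ih => rw [pow_succ, ih, ← hx.add, Nat.cast_succ]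
    rw [this, CharP.cast_eq_zero, hx.toIsSt.zero])
  fun h => one_ne_zero (x_inj hx hr (h.trans (hx.toIsSt.zero r).symm))

/-- The product of a semisimple element and a root element. -/
theorem Model.exists_orderOf_mul_z [IsAlgClosed K] (h : Model D x φ 1 q j) (p : ℕ) [hp : Fact p.Prime] [CharP K p]
    (hq : (q : K) = 0) (hw : w ∈ W D) {a : Fin D.rank → Kˣ} (ha : a ^ q = mact (wM D w) a) {r : ℕ} (hr : r < D.nroots)
    (h1 : r ∈ RT D a) (h2 : w r = r) (h3 : φ (x r 1) = x r 1) : ∃ y : G₀, orderOf y = orderOf a * p := by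
  have hs := h.sc.toIsSt
  obtain ⟨n, hn⟩ := NRep.exists_rep x hw
  obtain ⟨c, hc, h4⟩ := hn.acts hs
  have h5 := (hs.commute_RT (S := {r}) (Set.singleton_subset_iff.2 h1) (x_mem_XS (Set.mem_singleton r) 1)).symm
  obtain ⟨s, h6⟩ := IsAlgClosed.exists_pow_nat_eq (c r)⁻¹ two_pos
  have h7 : s ≠ 0 := fun e => inv_ne_zero (hc.ne_zero hr) (by rw [← h6, e, zero_pow two_ne_zero])
  have h8 := h.sc.HH_commute_z (hE_mem_HH x hr h7) (hProd_mem_HH x (a ^ q))
  have h9 := hs.acts_hE hr h7 r (c r * 1)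
  beta_reduce at h9
  rw [A_self hr, Equiv.Perm.one_apply, zpow_two, ← pow_two, h6, inv_mul_cancel_left₀ (hc.ne_zero hr)] at h9
  have e : ∀ s n : G, ∀ t, s * n * t * (s * n)⁻¹ = s * (n * t * n⁻¹) * s⁻¹ := fun _ _ _ => by group
  have h10 : hE D x r s * n * (hProd D x a * x r 1) * (hE D x r s * n)⁻¹ = φ (hProd D x a * x r 1) := by
    rw [map_mul, h3, (h.tor a (a ^ q)).2 (mact_one _).symm, ← conj_mul, e, e, h4, hn.conj_hProd hs h.sc.r3, ← ha,
      h8.mul_inv_cancel, h2, h9]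
  obtain ⟨y, hy⟩ := h.exists_orderOf_z (isConj_iff.2 ⟨_, h10⟩)
  refine ⟨y, hy.trans ?_⟩
  rw [h5.orderOf_mul_eq_mul_orderOf_of_coprime, h.sc.orderOf_hProd_z, h.sc.orderOf_x_z p hr]
  rw [h.sc.orderOf_hProd_z, h.sc.orderOf_x_z p hr, Nat.coprime_comm, hp.out.coprime_iff_not_dvd]
  exact not_dvd_orderOf_tor_z p (isOfFinOrder_tor_z hq (det_wM_ne_z hw) ha)

theorem SCov.order_decomp_z {D' : ChevalleyDatum} [RootFacts D'] [NFacts D'] [MatFacts D'] [ChainFacts D'] [MatFacts D]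
    [ChainFacts D] {e : ℕ → ℕ} {ε : ℕ → ℤ} (h : SCov D D' e ε) [IsAlgClosed K] {F : Type*} [Field F] [Fintype F] [Algebra F K]
    [Algebra.IsAlgebraic F K] (p : ℕ) [hp : Fact p.Prime] [CharP F p] (y : sG D D' F e ε) : ∃ w ∈ W D, ∃ a : Fin D.rank → Kˣ,
      a ^ Fintype.card F = mact (wM D w) a ∧ ∃ u ∈ XS (ys D D' K e ε) ({r | D.IsPosRoot r} ∩ RT D a), ∃ k,
        orderOf u = p ^ k ∧ orderOf y = orderOf a * p ^ k := by
  have := charP_of_injective_algebraMap (algebraMap F K).injective p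
  have hx := h.isSC (K := F)
  have : Finite (sG D D' F e ε) := Set.finite_univ_iff.1 (by
    have := hx.toIsSt.finite_GG; rwa [hx.gen] at this)
  have h0 := (orderOf_pos y).ne'
  obtain ⟨k, m, hm, h1⟩ := Nat.exists_eq_pow_mul_and_not_dvd h0 p hp.out.ne_one
  have h2 : orderOf (y ^ p ^ k) = m := by
    rw [orderOf_pow_of_dvd (pow_ne_zero _ hp.out.ne_zero) ⟨m, h1⟩, h1, Nat.mul_div_cancel_left _ (pow_pos hp.out.pos k)]
  have h3 : m ≠ 0 := by rintro rfl; simp at hm
  have h4 : orderOf (y ^ m) = p ^ k := by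
    rw [orderOf_pow_of_dvd h3 (Dvd.intro_left _ h1.symm), h1, Nat.mul_div_cancel _ h3.bot_lt]
  obtain ⟨w, hw, a, ha, h5⟩ := (h.ss_classes_z (K := K) p (h2 ▸ hm)).1
  have hj := mapS_injective (D := D) (D' := D') (e := e) (ε := ε) (algebraMap F K)
  obtain ⟨c, hc⟩ := isConj_iff.1 h5
  obtain ⟨L, _, hL⟩ := exists_finite_GL_z (F := F) (c * mapS D D' e ε (algebraMap F K) (y ^ m) * c⁻¹).1
  have h6 : orderOf (c * mapS D D' e ε (algebraMap F K) (y ^ m) * c⁻¹) = p ^ k := by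
    rw [← isConj_orderOf_z (isConj_iff.2 ⟨c, rfl⟩), orderOf_injective _ hj, h4]
  have : Finite ((GeneralLinearGroup.map L.subtype).range.subgroupOf (sG D D' K e ε)) :=

    have := Finite.of_surjective _ (GeneralLinearGroup.map (n := D'.Idx) L.subtype).rangeRestrict_surjective
    Finite.of_injective (fun z => (⟨z.1.1, z.2⟩ : (GeneralLinearGroup.map (n := D'.Idx) L.subtype).range))
      fun a b e => Subtype.ext (Subtype.ext (Subtype.mk.inj e))
  obtain ⟨z, -, hz⟩ := h.isSC.exists_conj_RT_z p (isOfFinOrder_tor_z (by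
    rw [← map_natCast (algebraMap F K), FiniteField.cast_card_eq_zero, map_zero]) (det_wM_ne_z hw) ha)
    ((GeneralLinearGroup.map L.subtype).range.subgroupOf _) (fun r => ⟨_, (map_embFam' _ r 1).trans (by rw [map_one]; rfl)⟩)
    hL (h6 ▸ pow_orderOf_eq_one _) (hc ▸ ((Commute.pow_pow_self y m (p ^ k)).map _).conj c)
  refine ⟨w, hw, a, ha, _, hz, k, (isConj_orderOf_z (isConj_iff.2 ⟨z, rfl⟩)).symm.trans h6, ?_⟩
  rw [← h.isSC.orderOf_hProd_z, ← isConj_orderOf_z h5, orderOf_injective _ hj, h2, h1, mul_comm]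

end Cfsg.Agent.H8
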