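import Cfsg.Agent.H8.Z.Weight
import Cfsg.Agent.H7.Aut2

/-! The simple modules in the defining characteristic and the number of semisimple classes. -/

set_option autoImplicit false
set_option linter.unusedSectionVars false

namespace Cfsg.Agent.H7

open Cfsg.Lie Cfsg.Agent.H8 Finset Classical

variable {D : ChevalleyDatum} {K : Type*} [Field K] [Fintype K] {G : Type*} [Group G] [Fintype G] [hD : RootFacts D] [hN : NFacts D]
  {x : ℕ → K → G} {k Y : Type*} [Field k] [AddCommGroup Y] [Module k Y] {ρ : G →* Module.End k Y}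
  {w : Equiv.Perm ℕ} {g h n : G} {y m : Y} {o o' : Fin D.rank → Option (Kˣ →* kˣ)}
  {p : ℕ} [hp : Fact p.Prime] [CharP K p] [CharP k p]

theorem HEig_z.exists_hom (hx : IsSt D x) (h : HEig_z D x ρ m) (hm : m ≠ 0) (i : Fin D.rank) :
    ∃ c : Kˣ →* kˣ, ∀ t : Kˣ, ρ (hE D x (D.simple i) t) m = (c t : k) • m := by
  choose a ha using fun t : Kˣ => h _ (hE_mem_HH x (simple_lt i) t.ne_zero)
  exact ⟨MonoidHom.toHomUnits ⟨⟨a, smul_left_injective k hm (by simp [← ha, hx.hE_one])⟩, fun t u => smul_left_injective k hm (by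
    simp only [← ha]
    rw [mul_comm (a t), mul_smul, ← ha, ← map_smul, ← ha, ← rho_mul_z, hx.R3_of_finite _ (simple_lt i) _ _ t.ne_zero u.ne_zero]; rfl)⟩, ha⟩

theorem IsWt_z.hProd (hx : IsSt D x) (h : IsWt_z D x ρ o m) (a : Fin D.rank → Kˣ) : ∃ c : k, ρ (hProd D x a) m = c • m := by
  unfold H8.hProd
  induction List.finRange D.rank with
  | nil => exact ⟨1, by simp⟩
  | cons i L ih =>
    obtain ⟨c, hc⟩ := ih
    exact ⟨_, by rw [List.map_cons, List.prod_cons, rho_mul_z, hc, map_smul, h.h, smul_smul]⟩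

theorem IsWt_z.hEig (hx : IsSt D x) (h : IsWt_z D x ρ o m) : HEig_z D x ρ m := fun g hg => by
  obtain ⟨a, rfl⟩ := hx.exists_hProd hx.R3_of_finite hg
  exact h.hProd hx a

include hp in
theorem IsFaith.tau_TT_neg_z (hx : IsFaith D x) (hn : NRep D x n w) (hy : y ∈ Fx_z D x ρ) {i : Fin D.rank}
    (hi : D.IsNegRoot (w⁻¹ (D.simple i))) {c : Kˣ →* kˣ}
    (hc : ∀ t : Kˣ, ρ (hE D x (D.simple i) t) (TTw_z D x ρ w n y) = (c t : k) • TTw_z D x ρ w n y) :
    tau_z D x ρ i (TTw_z D x ρ w n y) = (if c = 1 then -1 else 0 : k) • TTw_z D x ρ w n y := by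
  have h1 := ((NRep.simple x i).inv hx.toIsSt).mul hx.toIsSt hn
  rw [sref_inv] at h1
  have h2 := hx.tau_TT_z (ρ := ρ) (g := (nE D x (D.simple i) 1)⁻¹ * n) h1.mem_W (i := i) (by
    rw [mul_inv_rev, sref_inv]; exact mul_sref_pos_of_neg (inv_mem hn.mem_W) hi)
  rw [← mul_assoc, sref_mul_self, one_mul, mul_inv_cancel_left] at h2
  rw [← h2] at hc ⊢
  exact tau_tau_of_z (p := p) hx.toIsSt i (hx.TT_mem_z h1 hy) hc

include hp in
theorem IsChev.exists_wt_z [IsAlgClosed k] [FiniteDimensional k Y] [Nontrivial Y] (hx : IsChev D x) (ρ : G →* Module.End k Y) :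
    ∃ o m, m ≠ 0 ∧ IsWt_z D x ρ o m := by
  have hs := hx.toIsSt
  obtain ⟨v, -, h0, hv⟩ := H1.exists_fixed_of_isPGroup (hx.isPGroup_UU p) (ρ.comp (UU D x).subtype) ⊤ top_ne_bot fun _ _ _ => trivial
  obtain ⟨y, hy, h1, h2⟩ := exists_eig_z (S := ρ '' HH D x) (M := Fx_z D x ρ)
    (by rintro _ ⟨a, ha, rfl⟩ _ ⟨b, hb, rfl⟩; exact (hx.HH_commute ha hb).map ρ)
    (fun h => h0 ((Submodule.eq_bot_iff _).1 h v fun u hu => hv ⟨u, hu⟩))
    (by rintro _ ⟨a, ha, rfl⟩ v hv; exact Fx_z.BB hs (HH_le_BB x ha) hv)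
  obtain ⟨⟨w, hw⟩, ⟨n, hn, h3⟩, h4⟩ := Set.exists_max_image {w : W D | ∃ n, NRep D x n w ∧ TTw_z D x ρ w n y ≠ 0} (fun w => len D w)
    (Set.toFinite _) ⟨1, 1, NRep.one, by simpa [TT_one_z] using h1⟩
  choose c hc using (HEig_z.TTw_z (w := w) hs (fun h hh => h2 _ ⟨h, hh, rfl⟩) hn.mem_NN).exists_hom hs h3
  refine ⟨fun i => if D.IsNegRoot (w⁻¹ (D.simple i)) ∧ c i = 1 then none else some (c i), _, h3, hx.TT_mem_z hn hy, fun i t => ?_, fun i => ?_⟩
  · rw [hc]; split_ifs with h <;> simp [h]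
  · rcases pos_or_neg (W_lt (inv_mem hw) (simple_lt i)) with h | h
    · rw [if_neg fun h' => not_neg_of_pos h h'.1, ← Module.End.mul_apply, hx.tau_TT_z hw h]
      by_contra h5
      have := h4 ⟨_, mul_mem (sref_mem i) hw⟩ ⟨_, (NRep.simple x i).mul hs hn, by simpa using h5⟩
      simp [len_sref_mul_of_pos hw h] at this
    · rw [hx.tau_TT_neg_z (p := p) hn hy h (hc i)]
      simp only [h, true_and]
      split_ifs <;> rfl

theorem IsWt_z.dual (hx : IsSt D x) (h : IsWt_z D x ρ o m) {φ : Module.Dual k Y} (hφ : ∀ v ∈ VV D x, ∀ y, φ (ρ v y) = φ y)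
    (h0 : φ m = 0) (hg : g ∈ GG x) : φ (ρ g m) = 0 := by
  let M := Submodule.span k {z | ∃ v ∈ VV D x, z = ρ v m}
  have hV : ∀ v ∈ VV D x, ∀ z ∈ M, ρ v z ∈ M := fun v hv z hz => (Submodule.span_le (p := M.comap (ρ v))).2
    (by rintro _ ⟨v', hv', rfl⟩; exact Submodule.subset_span ⟨_, mul_mem hv hv', (rho_mul_z _ _ _).symm⟩) hz
  have hm : m ∈ M := Submodule.subset_span ⟨1, one_mem _, by simp⟩
  have hU : ∀ (i : Fin D.rank) a, ∀ z ∈ M, ρ (x (D.simple i) a) z ∈ M := fun i a z hz => by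
    have hi := simple_lt i (D := D)
    have hn := NRep.simple x i
    set n := nE D x (D.simple i) 1
    have h1 : ∀ g ∈ Cell D x (sref D i), ρ (n⁻¹ * g) m ∈ M := fun g hg => by
      obtain ⟨u, hu, n', hn', u', hu', rfl⟩ := hx.cell_sharp_left hg
      obtain ⟨c, hc⟩ := h.hEig hx _ (hn.inv_mul_mem hx hn')
      rw [show n⁻¹ * (u * n' * u') = n⁻¹ * u * n * (n⁻¹ * n' * u') by group, rho_mul_z, rho_mul_z _ u', h.fx _ hu', hc, map_smul]
      exact M.smul_mem _ (hV _ (hn.conj_XS' hx (fun r hr => hr.2) hu) _ hm)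
    have hnn : n * n ∈ HH D x := hx.nE_sq _ ▸ inv_mem (hE_mem_HH x hi (by simp))
    have h2 : ∀ t ≠ 0, x (D.neg (D.simple i)) t ∈ Cell D x (sref D i) := fun t ht => refl_simple i ▸ hx.x_neg_mem_cell (simple_pos i) ht
    have h3 : ρ n⁻¹ m ∈ M := by
      have h4 := h.t i
      rcases eq_or_ne ((o i).elim (-1) fun _ => 0 : k) 0 with h5 | h5
      · rw [h5, zero_smul, tau_z, LinearMap.sum_apply, Fintype.sum_eq_sum_compl_add 0, hx.zero, one_mul, add_eq_zero_iff_neg_eq] at h4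
        obtain ⟨c, hc⟩ := h.hEig hx _ (inv_mem hnn)
        rw [show n⁻¹ = n * (n * n)⁻¹ by group, rho_mul_z, hc, map_smul, ← h4]
        refine M.smul_mem _ (neg_mem (M.sum_mem fun t ht => ?_))
        have := h1 _ (Cell.mul_right (h2 (-((1 : K)⁻¹ ^ 2 * t)) (by simpa using ht)) (HH_le_BB x hnn))
        rwa [← hx.nE_conj_self hi one_ne_zero, show n⁻¹ * (n * x _ t * n⁻¹ * (n * n)) = x (D.simple i) t * n by group] at this
      · rw [← M.smul_mem_iff h5, ← map_smul, ← h4, tau_z, LinearMap.sum_apply, map_sum]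
        exact M.sum_mem fun t _ => rho_mul_z (ρ := ρ) n⁻¹ _ m ▸ h1 _ (Cell.mul_left hn.mem_cell (x_mem_BB x (simple_pos i) t))
    refine (Submodule.span_le.2 ?_ : M ≤ M.comap (ρ (x (D.simple i) a))) hz
    rintro _ ⟨v, hv, rfl⟩
    obtain ⟨v', hv', b, hb, rfl⟩ := hx.exists_mul (S₁ := {r | ¬ D.InRootSub {i.1} r}) (S₂ := {D.neg (D.simple i)}) isClosed_neg
      w0_mem (fun k hk => w0_pos_of_neg hk) (fun k hk => by
        by_cases h : D.InRootSub {i.1} k
        · exact Or.inr ((inRootSub_singleton h).resolve_left fun e => not_pos_of_neg hk (e ▸ simple_pos i))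
        · exact Or.inl h) hv
    obtain ⟨t, rfl⟩ := hx.mem_XS_singleton (XS_mono x Set.inter_subset_right hb)
    rcases eq_or_ne a 0 with rfl | ha
    · simpa [hx.zero] using hV _ hv _ hm
    change ρ _ (ρ _ m) ∈ M
    have h4 := hx.cell_mul_sref (h2 (-((1 : K)⁻¹ ^ 2 * a)) (by simpa using ha))
      (Cell.mul_left hn.mem_cell (x_mem_BB x (simple_pos i) (-((1 : K) ^ 2 * t))))
    rw [← hx.nE_conj_self hi one_ne_zero, ← hx.nE_conj_neg hi one_ne_zero, sref_mul_self] at h4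
    rw [← rho_mul_z, show ∀ a b : G, a * (v' * b) = a * v' * a⁻¹ * (n⁻¹ * (n * a * n⁻¹ * (n * b * n⁻¹ * n))) from fun a b => by group, rho_mul_z]
    refine hV _ (VJ_le_VV (LJ_conj_VJ hx (J := {i.1}) (x_mem_LJ (simple_inRootSub.2 (Set.mem_singleton _)) a) hv')) _
      (h4.elim (fun h4 => ?_) fun h4 => h1 _ h4.1)
    obtain ⟨c, hc⟩ := (h.hEig hx).BB hx h.fx (hx.mem_cell_one.1 h4)
    rw [rho_mul_z, hc, map_smul]
    exact M.smul_mem _ h3
  let H : Subgroup G :=
    { carrier := {g | (∀ z ∈ M, ρ g z ∈ M) ∧ ∀ z ∈ M, ρ g⁻¹ z ∈ M}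
      one_mem' := by simp
      mul_mem' := fun ha hb => ⟨fun z hz => rho_mul_z (ρ := ρ) _ _ z ▸ ha.1 _ (hb.1 z hz),
        fun z hz => by rw [mul_inv_rev, rho_mul_z]; exact hb.2 _ (ha.2 z hz)⟩
      inv_mem' := fun ha => ⟨ha.2, by simpa using ha.1⟩ }
  have h1 := (hx.GG_le_of_pm_simple (H := H) (fun i t => ⟨hU i t, hx.neg _ t ▸ hU i _⟩) (fun i t =>
    ⟨hV _ (x_mem_VV x (neg_simple_neg i) t), hV _ (inv_mem (x_mem_VV x (neg_simple_neg i) t))⟩) hg).1 m hm
  exact (Submodule.span_le (p := LinearMap.ker φ)).2 (by rintro _ ⟨v, hv, rfl⟩; exact (hφ v hv m).trans h0) h1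

variable (D x) in
/-- The subgroup generated by the `h_j(t)`, `j ∈ J`. -/
def HK_z (J : Set ℕ) : Subgroup G := Subgroup.closure {g | ∃ j : Fin D.rank, j.1 ∈ J ∧ ∃ t : Kˣ, g = hE D x (D.simple j) t}

theorem hE_mem_HK_z {J : Set ℕ} {j : Fin D.rank} (hj : j.1 ∈ J) {t : K} (ht : t ≠ 0) : hE D x (D.simple j) t ∈ HK_z D x J :=
  Subgroup.subset_closure ⟨j, hj, Units.mk0 t ht, rfl⟩

theorem HK_le_z (J : Set ℕ) : HK_z D x J ≤ HH D x :=
  (Subgroup.closure_le _).2 (by rintro _ ⟨j, -, t, rfl⟩; exact hE_mem_HH x (simple_lt j) t.ne_zero)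

theorem nWd_comm_mem_z (hx : IsSt D x) {J : Set ℕ} {l : List (Fin D.rank)} (hl : ∀ i ∈ l, i.1 ∈ J) (hh : h ∈ HH D x) :
    nWd D x l * h * (nWd D x l)⁻¹ * h⁻¹ ∈ HK_z D x J := by
  induction l with
  | nil => simp
  | cons j l ih =>
    have h1 := hx.nWd_conj_HH l hh
    obtain ⟨a, ha⟩ := hx.acts_of_mem_HH h1
    have h2 := ha.conj_nE (one_mem _) (goodScal_torChar a) (simple_lt j) 1
    rw [hx.nE_eq (_ : ℕ) (_ * 1), ← mul_inv_eq_iff_eq_mul] at h2
    have h3 := mul_mem (inv_mem (h2 ▸ hE_mem_HK_z (x := x) (hl j List.mem_cons_self) (by simp)))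
      (ih fun i hi => hl i (List.mem_cons_of_mem _ hi))
    simpa only [nWd_cons, mul_inv_rev, inv_inv, mul_assoc, inv_mul_cancel_left, mul_inv_cancel_left, Equiv.Perm.one_apply] using h3

theorem nWd_mem_HK_z (hx : IsSt D x) {J : Set ℕ} {l : List (Fin D.rank)} (hJ : ∀ i ∈ l, i.1 ∈ J) (hl : wordW D l = 1) :
    nWd D x l ∈ HK_z D x J := by
  generalize hn : l.length = n
  induction n using Nat.strong_induction_on generalizing l with
  | _ n ih =>
    rcases List.eq_nil_or_concat' l with rfl | ⟨m, i, rfl⟩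
    · exact one_mem _
    · rw [wordW_concat, mul_eq_one_iff_eq_inv, sref_inv] at hl
      obtain ⟨l₁, j, l₂, rfl, h2⟩ := exchange (l := m) (simple_pos i) (by rw [hl, sref_simple]; exact neg_simple_neg i)
      have h3 := wordW_exchange (l₁ := l₁) h2
      rw [hl, sref_mul_self] at h3
      have h4 := ih _ (by simp at hn; rw [← hn]; simp) (fun i hi => hJ i (by grind)) h3.symm rfl
      have h5 := (hx.acts_nWd l₂).conj_nE (wordW_mem l₂) (goodScal_wSign l₂) (simple_lt i) 1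
      rw [h2, mul_one, hx.nE_eq (D.simple j)] at h5
      have hj := hJ j (by simp)
      have h6 := hE_mem_HK_z (x := x) hj ((goodScal_wSign (K := K) l₂).ne_zero (simple_lt i))
      have h7 := mul_mem (mul_mem (nWd_comm_mem_z hx (l := [j]) (by simpa) (HK_le_z _ h6)) h6)
        (inv_mem (hE_mem_HK_z hj (neg_ne_zero.2 one_ne_zero)))
      rw [← hx.nE_sq] at h7
      have h8 := mul_mem (mul_mem (nWd_comm_mem_z hx (l := l₁) (fun i hi => hJ i (by simp [hi])) (HK_le_z _ h7)) h7) h4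
      simp only [nWd_cons, nWd_nil, mul_one, inv_mul_cancel_right] at h8
      rw [← eq_mul_inv_iff_mul_eq.2 h5.symm |>.symm] at h8
      simpa [nWd_append, nWd_cons, mul_assoc] using h8

theorem nWd_inv_mul_mem_z (hx : IsSt D x) {J : Set ℕ} {l l' : List (Fin D.rank)} (hJ : ∀ i ∈ l, i.1 ∈ J) (hJ' : ∀ i ∈ l', i.1 ∈ J)
    (hl : wordW D l = wordW D l') : (nWd D x l')⁻¹ * nWd D x l ∈ HK_z D x J := by
  have h1 := nWd_mem_HK_z hx (J := J) (l := l'.reverse ++ l) (by grind) (by rw [wordW_append, wordW_reverse, hl, inv_mul_cancel])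
  have h2 := nWd_mem_HK_z hx (J := J) (l := l'.reverse ++ l') (by grind) (by rw [wordW_append, wordW_reverse, inv_mul_cancel])
  simpa [nWd_append, mul_assoc] using mul_mem (inv_mem h2) h1

variable (k G) in
/-- The regular representation. -/
def rreg_z : G →* Module.End k (G → k) where
  toFun g := LinearMap.funLeft k k (· * g)
  map_one' := by ext; simp
  map_mul' a b := by ext; simp [mul_assoc]

include hp in
theorem IsFaith.exists_of_wt_z (hx : IsFaith D x) (hz : ∀ a, hProd D x a = 1 → a = 1) (o : Fin D.rank → Option (Kˣ →* kˣ)) :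
    ∃ m ≠ 0, IsWt_z D x (rreg_z G k) o m := by
  have hs := hx.toIsSt
  have h3 := hs.R3_of_finite
  obtain ⟨n, hn⟩ := NRep.exists_rep x (w0_mem (D := D))
  let χ : (Fin D.rank → Kˣ) →* kˣ := ∏ i, ((o i).getD 1).comp (Pi.evalMonoidHom _ i)
  let y : G → k := fun z => ∑ a, if z * (hProd D x a)⁻¹ * n ∈ UU D x then (χ a : k) else 0
  have y1 : ∀ a, rreg_z G k (hProd D x a) y = (χ a : k) • y := fun a => funext fun z => by
    change y (z * _) = χ a * y z
    rw [mul_sum]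
    exact (Fintype.sum_equiv (Equiv.mulRight a) _ _ fun b => by
      simp only [← hs.hProdHom_eq h3, Equiv.coe_mulRight, map_mul, mul_inv_rev, mul_assoc, mul_inv_cancel_left, mul_ite, mul_zero,
        Units.val_mul, mul_comm (χ b : k)]).symm
  have y2 : rreg_z G k n⁻¹ y ∈ Fx_z D x (rreg_z G k) := fun u hu => funext fun z => by
    refine sum_congr rfl fun a _ => if_congr ?_ rfl rfl
    have := IsFaith.BB_conj_UU hs (HH_le_BB x (hs.NN_conj_HH' hn.mem_NN (hProd_mem_HH x a))) hu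
    exact (iff_of_eq (congrArg (· ∈ UU D x) (by group))).trans (mul_mem_cancel_right this)
  have y3 : ∀ (i : Fin D.rank) (t : Kˣ), rreg_z G k (hE D x (D.simple i) t) y = ((o i).getD 1 t : k) • y := fun i t => by
    rw [← hs.hProdHom_single h3, hs.hProdHom_eq, y1]
    simp only [χ, MonoidHom.finsetProd_apply]
    rw [prod_eq_single i (fun j _ hj => by simp [hj]) (by simp)]; simp
  let J : Set ℕ := {j | ∃ h, o ⟨j, h⟩ = some 1}
  have y4 : ∀ g ∈ HK_z D x J, rreg_z G k g y = y := fun g hg => by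
    induction hg using Subgroup.closure_induction with
    | mem g hg => obtain ⟨j, ⟨_, hj⟩, t, rfl⟩ := hg; simp [y3, hj]
    | one => simp
    | mul a b _ _ ha hb => rw [rho_mul_z, hb, ha]
    | inv a _ ha => conv_lhs => rw [← ha, ← rho_mul_z, inv_mul_cancel, map_one, Module.End.one_apply]
  choose l hl using fun v : WJ D J => exists_word_WJ v.2
  have : Finite (WJ D J) := Finite.of_injective _ (Subgroup.inclusion_injective (WJ_le J))
  let _ := Fintype.ofFinite (WJ D J)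
  let f : WJ D J → G → k := fun v => TTw_z D x (rreg_z G k) (v * w0 D) (nWd D x (l v)) y
  have f0 : ∀ v, NRep D x (nWd D x (l v) * n) (v * w0 D) := fun v => by
    have := (NRep.nWd x (l v)).mul hs hn
    rwa [(hl v).2.1] at this
  have f1 : ∀ v, f v = TTw_z D x (rreg_z G k) (v * w0 D) (nWd D x (l v) * n) (rreg_z G k n⁻¹ y) := fun v => by
    rw [← TT_mul_z, mul_inv_cancel_right]
  have f2 : ∀ v (i : Fin D.rank) (t : Kˣ), rreg_z G k (hE D x (D.simple i) t) (f v) = ((o i).getD 1 t : k) • f v := fun v i t => by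
    have h1 := nWd_comm_mem_z hs (hl v).1 (hs.NN_conj_HH' (nWd_mem_NN x (l v)) (hE_mem_HH x (simple_lt i) t.ne_zero))
    rw [← Module.End.mul_apply, rho_TT_z hs (hE_mem_HH x (simple_lt i) t.ne_zero),
      show ∀ h n : G, h * n = n * ((n * (n⁻¹ * h * n) * n⁻¹ * (n⁻¹ * h * n)⁻¹)⁻¹ * h) from fun _ _ => by group, TT_mul_z, rho_mul_z, y3,
      map_smul, y4 _ (inv_mem h1), map_smul]
  refine ⟨∑ v, f v, fun h => one_ne_zero (α := k) (Eq.trans ?_ (congrFun h n⁻¹)), sum_mem fun v _ => f1 v ▸ hx.TT_mem_z (f0 v) y2,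
    fun i t => by simp only [map_sum, f2, smul_sum], fun i => ?_⟩
  · have h1 : ∀ (v : WJ D J) (u : Um D x (v * w0 D)⁻¹) a, n⁻¹ * (u * nWd D x (l v)) * (hProd D x a)⁻¹ * n ∈ UU D x → v = 1 ∧ u = 1 ∧ a = 1 := by
      intro v u a h
      have h1 := Cell.mul_left ((f0 v).mul_HH hs (inv_mem (hs.NN_conj_HH' hn.mem_NN (hProd_mem_HH x a)))).mem_cell
        (UU_le_BB x (Um_le_UU x _ u.2))
      have h2 := Cell.mul_right hn.mem_cell (UU_le_BB x h)
      rw [show ∀ u m h : G, u * (m * n * (n⁻¹ * h * n)⁻¹) = n * (n⁻¹ * (u * m) * h⁻¹ * n) from fun _ _ _ => by group] at h1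
      obtain rfl : v = 1 := Subtype.ext (mul_eq_right.1 (hx.cell_unique h1 h2))
      have h4 : l 1 = [] := List.length_eq_zero_iff.1 ((hl 1).2.2.trans len_one)
      rw [h4, nWd_nil, mul_one] at h
      have h5 := hx.eq_one_of_VV_BB (hn.conj_XS' hs (fun r hr => by simpa using hr.2) u.2) (by
        simpa [mul_assoc] using mul_mem (UU_le_BB x h) (HH_le_BB x (hs.NN_conj_HH' hn.mem_NN (hProd_mem_HH x a))))
      have h6 : u = 1 := Subtype.ext (by simpa [mul_assoc] using congrArg (n * · * n⁻¹) h5)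
      rw [h6, OneMemClass.coe_one, mul_one] at h
      have h7 := hx.eq_one_of_UU_HH h (hs.NN_conj_HH' hn.mem_NN (inv_mem (hProd_mem_HH x a)))
      exact ⟨rfl, h6, hz a (by simpa [mul_assoc] using congrArg (n * · * n⁻¹) h7)⟩
    simp only [f, TTw_z, Finset.sum_apply, LinearMap.sum_apply]
    change _ = ∑ v : WJ D J, ∑ u : Um D x (v * w0 D)⁻¹, ∑ a, if n⁻¹ * (u * nWd D x (l v)) * (hProd D x a)⁻¹ * n ∈ UU D x then (χ a : k) else 0
    rw [Fintype.sum_eq_single 1 fun v hv => sum_eq_zero fun u _ => sum_eq_zero fun a _ => if_neg fun h => hv (h1 v u a h).1,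
      Fintype.sum_eq_single 1 fun u hu => sum_eq_zero fun a _ => if_neg fun h => hu (h1 _ u a h).2.1,
      Fintype.sum_eq_single 1 fun a ha => if_neg fun h => ha (h1 _ _ a h).2.2,
      List.length_eq_zero_iff.1 ((hl 1).2.2.trans len_one), ← hs.hProdHom_eq h3]
    simp
  · have f3 : ∀ v : WJ D J, D.IsNegRoot ((v * w0 D)⁻¹ (D.simple i)) →
        tau_z D x (rreg_z G k) i (f v) = (if (o i).getD 1 = 1 then -1 else 0 : k) • f v := fun v hv => by
      rw [f1]; exact hx.tau_TT_neg_z (p := p) (f0 v) y2 hv fun t => f1 v ▸ f2 v i t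
    rw [map_sum]
    by_cases hi : o i = some 1
    · have hi' : i.1 ∈ J := ⟨i.2, hi⟩
      have f4 : ∀ v : WJ D J, D.IsPosRoot ((v * w0 D)⁻¹ (D.simple i)) →
          tau_z D x (rreg_z G k) i (f v) + tau_z D x (rreg_z G k) i (f (⟨_, sref_mem_WJ hi'⟩ * v)) = 0 := fun v hv => by
        rw [f3 (_ * v) (by
          rw [Subgroup.coe_mul, mul_assoc, mul_inv_rev, sref_inv]; exact mul_sref_neg_of_pos (inv_mem (f0 v).mem_W) hv),
          ← Module.End.mul_apply, hx.tau_TT_z (f0 v).mem_W hv, ← nWd_cons, ← mul_inv_cancel_left (nWd D x (l (⟨_, sref_mem_WJ hi'⟩ * v)))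
            (nWd D x (i :: l v)), TT_mul_z, y4 _ (nWd_inv_mul_mem_z hs (List.forall_mem_cons.2 ⟨hi', (hl v).1⟩) (hl _).1
              (by rw [wordW_cons, (hl _).2.1, (hl _).2.1]; rfl))]
        simp [hi, f, mul_assoc]
      have h1 : ∀ v : WJ D J, ⟨_, sref_mem_WJ hi'⟩ * (⟨_, sref_mem_WJ hi'⟩ * v) = v := fun v =>
        Subtype.ext (show sref D i * (sref D i * v) = v by rw [← mul_assoc, sref_mul_self, one_mul])
      rw [hi, Option.elim_some, zero_smul]
      refine sum_involution (fun v _ => ⟨_, sref_mem_WJ hi'⟩ * v) (fun v _ => ?_) (fun v _ _ h => ?_) (fun _ _ => mem_univ _) fun v _ => h1 v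
      · rcases pos_or_neg (W_lt (inv_mem (f0 v).mem_W) (simple_lt i)) with h | h
        · exact f4 v h
        · have := f4 (⟨_, sref_mem_WJ hi'⟩ * v) (by
            rw [Subgroup.coe_mul, mul_assoc, mul_inv_rev, sref_inv]; exact mul_sref_pos_of_neg (inv_mem (f0 v).mem_W) h)
          rwa [h1, add_comm] at this
      · have := len_sref (D := D) i
        rw [show sref D i = 1 from congrArg Subtype.val (mul_eq_right.1 h), len_one] at this
        omega
    · rw [smul_sum]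
      refine sum_congr rfl fun v _ => (f3 v ?_).trans ?_
      · rw [mul_inv_rev, w0_inv]
        exact w0_neg_of_pos (WJ_pos (inv_mem v.2) (simple_pos i) fun h => hi (simple_inRootSub.1 h).2)
      · cases h : o i <;> simp_all

theorem IsWt_z.transfer {Y' : Type*} [AddCommGroup Y'] [Module k Y'] {σ : G →* Module.End k Y'} {v : Y'} (h : IsWt_z D x ρ o m)
    (hv : ∀ a, MonoidAlgebra.lift k _ G ρ a m = 0 → MonoidAlgebra.lift k _ G σ a v = 0) : IsWt_z D x σ o v where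
  fx u hu := by simpa [sub_eq_zero] using hv (MonoidAlgebra.of k G u - 1) (by simpa [sub_eq_zero] using h.fx u hu)
  h i t := by
    simpa [sub_eq_zero] using hv (MonoidAlgebra.of k G (hE D x (D.simple i) t) - ((o i).getD 1 t : k) • 1)
      (by simpa [sub_eq_zero] using h.h i t)
  t i := by
    simpa [sub_eq_zero, tau_z] using hv (∑ t, MonoidAlgebra.of k G (x (D.simple i) t * nE D x (D.simple i) 1) -
      ((o i).elim (-1) fun _ => 0 : k) • 1) (by simpa [sub_eq_zero, tau_z] using h.t i)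

theorem IsWt_z.unique (h : IsWt_z D x ρ o m) (h' : IsWt_z D x ρ o' m) (hm : m ≠ 0) : o = o' := funext fun i => by
  have h1 := smul_left_injective k hm ((h.t i).symm.trans (h'.t i))
  have h2 : (o i).getD 1 = (o' i).getD 1 := MonoidHom.ext fun t => Units.ext (smul_left_injective k hm ((h.h i t).symm.trans (h'.h i t)))
  cases e : o i <;> cases e' : o' i <;> simp_all

theorem IsWt_z.smul (h : IsWt_z D x ρ o m) (c : k) : IsWt_z D x ρ o (c • m) :=
  ⟨(Fx_z D x ρ).smul_mem c h.fx, fun i t => by rw [map_smul, h.h, smul_comm], fun i => by rw [map_smul, h.t, smul_comm]⟩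

include hp in
theorem IsChev.exists_dual_z [FiniteDimensional k Y] [Nontrivial Y] (hx : IsChev D x) (ρ : G →* Module.End k Y) :
    ∃ φ : Module.Dual k Y, φ ≠ 0 ∧ ∀ v ∈ VV D x, ∀ y, φ (ρ v y) = φ y := by
  obtain ⟨n, hn⟩ := NRep.exists_rep x (w0_mem (D := D))
  obtain ⟨φ, -, h0, hv⟩ := H1.exists_fixed_of_isPGroup (hx.isPGroup_UU p) ((Representation.dual ρ).comp (UU D x).subtype) ⊤ top_ne_bot
    fun _ _ _ => trivial
  refine ⟨φ ∘ₗ ρ n, fun h => h0 (LinearMap.ext fun y => ?_), fun v hv' y => ?_⟩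
  · have : φ (ρ n (ρ n⁻¹ y)) = 0 := LinearMap.congr_fun h (ρ n⁻¹ y)
    rwa [← rho_mul_z, mul_inv_cancel, map_one] at this
  · have : φ (ρ (n * v * n⁻¹)⁻¹⁻¹ (ρ n y)) = φ (ρ n y) :=
      LinearMap.congr_fun (hv ⟨_, inv_mem (IsFaith.conj_VV_mem_UU hx.toIsSt hn hv')⟩) (ρ n y)
    rwa [inv_inv, ← rho_mul_z, inv_mul_cancel_right, rho_mul_z] at this

theorem IsChev.card_preg_z (hx : IsChev D x) (hG : GG x = ⊤) (hz : zker D K = ⊥) (p : ℕ) [hp : Fact p.Prime] [CharP K p] :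
    Nat.card {c : ConjClasses G // ∃ g, ConjClasses.mk g = c ∧ (orderOf g).Coprime p} = Fintype.card K ^ D.rank := by
  have hs := hx.toIsSt
  let k := AlgebraicClosure (ZMod p)
  obtain ⟨S⟩ := exists_wedd (k := k) (G := G)
  have h1 : ∀ o, ∃ i v, v ≠ 0 ∧ IsWt_z D x (S.ρ i) o v := fun o => by
    obtain ⟨m, hm, h⟩ := hx.toIsFaith.exists_of_wt_z (p := p) (k := k) (fun a ha => (Subgroup.eq_bot_iff_forall _).1 hz a fun j => by
      have h2 := hs.acts_hProd a (D.simple j) 1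
      rw [ha, one_mul, inv_one, mul_one, mul_one] at h2
      exact Units.ext (hx.x_inj (simple_lt j) h2).symm) o
    obtain ⟨i, v, hv, h2⟩ := S.exists_vec _ hm
    exact ⟨i, v, hv, h.transfer h2⟩
  choose f v hv hf using h1
  have hb : Function.Bijective f := by
    refine ⟨fun o o' e => ?_, fun i => ?_⟩
    · obtain ⟨m, hm, h⟩ : ∃ m ≠ 0, IsWt_z D x (S.ρ (f o)) o' m := e ▸ ⟨_, hv o', hf o'⟩
      obtain ⟨o₁, ξ, h0, hξ⟩ := hx.exists_wt_z (p := p) (Representation.dual (S.ρ (f o)))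
      obtain ⟨n, hn⟩ := NRep.exists_rep x (w0_mem (D := D))
      have key : ∀ z ∈ Fx_z D x (S.ρ (f o)), ξ (S.ρ (f o) n⁻¹ z) = 0 → z = 0 := fun z hz h2 => by
        by_contra h3
        refine h0 (S.irr h3 fun g => ?_)
        have := hξ.dual hs (φ := Module.Dual.eval k _ (S.ρ (f o) n⁻¹ z)) (fun u hu η => by
          change η (S.ρ _ u⁻¹ (S.ρ _ n⁻¹ z)) = η (S.ρ _ n⁻¹ z)
          conv_rhs => rw [← hz _ (inv_mem (IsFaith.conj_VV_mem_UU hs hn hu))]
          rw [← rho_mul_z, ← rho_mul_z]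
          exact congrArg (fun g => η (S.ρ _ g z)) (by group)) h2 (g := n⁻¹ * g⁻¹) (hG ▸ Subgroup.mem_top _)
        change ξ (S.ρ _ (n⁻¹ * g⁻¹)⁻¹ (S.ρ _ n⁻¹ z)) = 0 at this
        rwa [← rho_mul_z, mul_inv_rev, inv_inv, inv_inv, mul_inv_cancel_right] at this
      have h2 := key (ξ (S.ρ (f o) n⁻¹ m) • v o - ξ (S.ρ (f o) n⁻¹ (v o)) • m)
        (sub_mem (((hf o).smul _).fx) ((h.smul _).fx)) (by simp [mul_comm])
      exact ((hf o).smul _).unique (sub_eq_zero.1 h2 ▸ h.smul _) (smul_ne_zero (fun h3 => hm (key m h.fx h3)) (hv o))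
    · obtain ⟨o, m, hm, h⟩ := hx.exists_wt_z (p := p) (S.ρ i)
      refine ⟨o, by_contra fun hne => ?_⟩
      obtain ⟨φ, h0, hφ⟩ := hx.exists_dual_z (p := p) (S.ρ i)
      obtain ⟨ψ, h1, hψ⟩ := hx.exists_dual_z (p := p) (S.ρ (f o))
      have h2 : φ m ≠ 0 := fun h2 => h0 (S.irr hm fun g => h.dual hs hφ h2 (hG ▸ Subgroup.mem_top g))
      let σ : G →* Module.End k (_ × _) := Representation.prod (S.ρ i) (S.ρ (f o))
      have h3 : IsWt_z D x σ o (m, v o) := ⟨fun u hu => Prod.ext (h.fx u hu) ((hf o).fx u hu), fun j t => Prod.ext (h.h j t) ((hf o).h j t),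
        fun j => Prod.ext (by simpa [tau_z, Prod.fst_sum, σ] using h.t j) (by simpa [tau_z, Prod.snd_sum, σ] using (hf o).t j)⟩
      refine smul_ne_zero h2 h1 (S.irr₂ hne (hv o) (η := ψ (v o) • φ) (w := m) fun g => ?_)
      have := h3.dual hs (φ := (φ m • ψ) ∘ₗ LinearMap.snd k _ _ - (ψ (v o) • φ) ∘ₗ LinearMap.fst k _ _)
        (fun u hu z => by simp [σ, hφ u hu, hψ u hu]) (by simp [mul_comm]) (hG ▸ Subgroup.mem_top g)
      exact sub_eq_zero.1 this
  have : NeZero ((Monoid.exponent Kˣ : ℕ) : k) := ⟨fun h => by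
    have h1 := (Nat.cast_dvd_cast (α := k) (Group.exponent_dvd_card (G := Kˣ))).trans dvd_rfl
    rw [h, zero_dvd_iff, Fintype.card_units, Nat.cast_sub Fintype.card_pos, card_cast_eq_zero_z (p := p)] at h1
    simp at h1⟩
  have : Finite (Kˣ →* kˣ) := Nat.finite_of_card_ne_zero (by
    rw [CommGroup.card_monoidHom_of_hasEnoughRootsOfUnity]; exact Nat.card_pos.ne')
  rw [S.card_eq p, ← Nat.card_fin S.n, ← Nat.card_eq_of_bijective f hb, Nat.card_fun, Finite.card_option,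
    CommGroup.card_monoidHom_of_hasEnoughRootsOfUnity, Nat.card_eq_fintype_card, Fintype.card_units, Nat.sub_add_cancel Fintype.card_pos,
    Nat.card_fin]

theorem zker_eq_bot_z (d : ℕ) (hd : d.Coprime (Fintype.card K - 1)) (M : List (List ℤ))
    (h : ∀ i k : Fin D.rank, ∑ j : Fin D.rank, (M.getD i []).getD j 0 * D.cartan k (D.simple j) = if k = i then (d : ℤ) else 0) :
    zker D K = ⊥ := (Subgroup.eq_bot_iff_forall _).2 fun a ha => funext fun i => by
  have h3 : torChar a (∑ j : Fin D.rank, (M.getD i []).getD j 0 • wt D (D.simple j)) = 1 := by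
    rw [torChar_sum]; exact Finset.prod_eq_one fun j _ => by rw [torChar_smul, ha j, _root_.one_zpow]
  simp only [torChar, wt, Finset.sum_apply, Pi.smul_apply, smul_eq_mul, h] at h3
  rw [prod_eq_single i (by simp +contextual) (by simp), if_pos rfl, zpow_natCast] at h3
  exact (pow_eq_one_iff_of_coprime hd).1 ⟨h3, Fintype.card_units K ▸ pow_card_eq_one⟩

end Cfsg.Agent.H7
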