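import Cfsg.Agent.H8.Model
import Cfsg.Agent.H8.Z.Weight2
import Mathlib.LinearAlgebra.FreeModule.Finite.CardQuotient

/-! Semisimple elements are conjugate into the diagonal torus of the algebraic group. -/

set_option autoImplicit false
set_option linter.unusedSectionVars false

namespace Cfsg.Agent.H8

open Cfsg.Lie Matrix Cfsg.Agent.H7 Finset

variable {D : ChevalleyDatum} {K : Type*} [Field K] {G : Type*} [Group G] {x : ℕ → K → G} {l : ℕ}
  {w : Equiv.Perm ℕ} {g n : G}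

theorem card_ker_mact_z [IsAlgClosed K] {N : Matrix (Fin l) (Fin l) ℤ} (hN : (N.det : K) ≠ 0) :
    Nat.card {a : Fin l → Kˣ // mact N a = 1} = N.det.natAbs := by
  have h0 : N.det ≠ 0 := fun h => hN (by simp [h])
  have hi : Function.Injective N.mulVecLin := (injective_iff_map_eq_zero _).2 fun _ => eq_zero_of_mulVec_eq_zero h0
  let R := LinearMap.range N.mulVecLin
  have h1 : N.det.natAbs = Nat.card ((Fin l → ℤ) ⧸ R) := by
    rw [← Submodule.natAbs_det_equiv R (LinearEquiv.ofInjective _ hi), ← LinearMap.det_toLin' N]; rfl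
  have : Finite ((Fin l → ℤ) ⧸ R) := Nat.finite_of_card_ne_zero (h1 ▸ Int.natAbs_ne_zero.2 h0)
  have : NeZero ((Monoid.exponent (Multiplicative ((Fin l → ℤ) ⧸ R)) : ℕ) : K) := ⟨fun h => hN (by
    have h2 := Nat.cast_dvd_cast (α := K) (Group.exponent_dvd_nat_card (G := Multiplicative ((Fin l → ℤ) ⧸ R)))
    rw [h, zero_dvd_iff, Nat.card_congr Multiplicative.toAdd, ← h1] at h2
    rcases Int.natAbs_eq N.det with e | e <;> rw [e] <;> simp only [Int.cast_neg, Int.cast_natCast, h2, neg_zero])⟩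
  rw [h1, ← Nat.card_congr (Multiplicative.toAdd (α := (Fin l → ℤ) ⧸ R)),
    ← CommGroup.card_monoidHom_of_hasEnoughRootsOfUnity (Multiplicative ((Fin l → ℤ) ⧸ R)) K]
  let f (a : Fin l → Kˣ) : (Fin l → ℤ) →+ Additive Kˣ :=
    ⟨⟨fun v => Additive.ofMul (torChar a v), torChar_zero a⟩, torChar_add a⟩
  refine Nat.card_eq_of_bijective (fun a => AddMonoidHom.toMultiplicativeLeft
    (QuotientAddGroup.lift R.toAddSubgroup (f a.1) (by
      rintro _ ⟨v, rfl⟩
      exact (torChar_mact N a.1 v).symm.trans (by rw [a.2, torChar_one]; rfl)))) ⟨fun a b e => ?_, fun χ => ?_⟩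
  · refine Subtype.ext (funext fun i => ?_)
    rw [← torChar_single' a.1, ← torChar_single' b.1]
    exact DFunLike.congr_fun e (Multiplicative.ofAdd (R.mkQ (Pi.single i 1)))
  · have h2 : ∀ v, torChar (fun i => χ (Multiplicative.ofAdd (R.mkQ (Pi.single i 1)))) v =
        χ (Multiplicative.ofAdd (R.mkQ v)) := fun v => by
      conv_rhs => rw [pi_eq_sum_univ' v]
      simp only [torChar, map_sum, map_smul, ofAdd_sum, map_prod, ofAdd_zsmul, map_zpow]
    refine ⟨⟨fun i => χ (Multiplicative.ofAdd (R.mkQ (Pi.single i 1))), funext fun j => ?_⟩, MonoidHom.ext fun z => ?_⟩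
    · rw [mact_apply, h2, R.mkQ_apply, (Submodule.Quotient.mk_eq_zero R).2 ⟨Pi.single j 1, by ext i; simp⟩]
      exact map_one χ
    · obtain ⟨v, rfl⟩ := R.mkQ_surjective z
      exact h2 v

theorem mact_sub_z (M M' : Matrix (Fin l) (Fin l) ℤ) (a : Fin l → Kˣ) : mact (M - M') a = mact M a / mact M' a := by
  funext j
  simp only [mact_apply, Pi.div_apply, div_eq_mul_inv, ← torChar_neg, ← torChar_add]; rfl

theorem mact_add_z (M M' : Matrix (Fin l) (Fin l) ℤ) (a : Fin l → Kˣ) : mact (M + M') a = mact M a * mact M' a := by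
  funext j
  simp only [mact_apply, Pi.mul_apply, ← torChar_add]; rfl

theorem mact_smul_z (c : ℤ) (M : Matrix (Fin l) (Fin l) ℤ) (a : Fin l → Kˣ) : mact (c • M) a = mact M a ^ c := by
  funext j
  simp only [mact_apply, Pi.pow_apply, ← torChar_smul]; rfl

theorem det_cast_ne_z {q : ℕ} (hq : (q : K) = 0) {M : Matrix (Fin l) (Fin l) ℤ} (hM : (M.det : K) ≠ 0) :
    ((((q : ℤ) • (1 : Matrix (Fin l) (Fin l) ℤ) - M).det : ℤ) : K) ≠ 0 := by
  have h1 : (Int.castRingHom K).mapMatrix ((q : ℤ) • (1 : Matrix (Fin l) (Fin l) ℤ) - M) =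
      (Int.castRingHom K).mapMatrix (-M) := by
    rw [map_sub, map_zsmul, map_neg, natCast_zsmul, ← Nat.cast_smul_eq_nsmul K, hq, zero_smul, zero_sub]
  have h2 := (Int.castRingHom K).map_det ((q : ℤ) • (1 : Matrix (Fin l) (Fin l) ℤ) - M)
  rw [h1, ← RingHom.map_det, det_neg] at h2
  simp only [eq_intCast] at h2
  rw [h2]; simpa using hM

/-- The order of a twisted torus. -/
theorem card_tor_z [IsAlgClosed K] {q : ℕ} (hq : (q : K) = 0) {M : Matrix (Fin l) (Fin l) ℤ} (hM : (M.det : K) ≠ 0) :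
    Nat.card {a : Fin l → Kˣ // a ^ q = mact M a} = ((q : ℤ) • (1 : Matrix (Fin l) (Fin l) ℤ) - M).det.natAbs := by
  rw [← card_ker_mact_z (det_cast_ne_z hq hM)]
  simp only [mact_sub_z, mact_smul_z, mact_one, div_eq_one, zpow_natCast]

variable [hD : RootFacts D]

theorem det_wM_mul_inv_z (hw : w ∈ W D) : (wM D w).det * (wM D w⁻¹).det = 1 := by
  rw [← det_mul, ← wM_mul (inv_mem hw), inv_mul_cancel, wM_one, det_one]

theorem det_wM_ne_z (hw : w ∈ W D) : (((wM D w).det : ℤ) : K) ≠ 0 := fun h => by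
  simpa [h] using congrArg (Int.cast : ℤ → K) (det_wM_mul_inv_z hw)

omit hD in
theorem updateCol_one_mul_z (i : Fin l) (c : Fin l → ℤ) (X : Matrix (Fin l) (Fin l) ℤ) (j k : Fin l) :
    ((1 : Matrix _ _ ℤ).updateCol i (fun j => (1 : Matrix _ _ ℤ) j i - c j) * X) j k = X j k - c j * X i k := by
  have : ∀ m, (1 : Matrix _ _ ℤ).updateCol i (fun j => (1 : Matrix _ _ ℤ) j i - c j) j m =
      (1 : Matrix _ _ ℤ) j m - if m = i then c j else 0 := fun m => by
    rw [updateCol_apply]; split_ifs with h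
    · rw [h]
    · simp
  simp only [mul_apply, this]
  simp [sub_mul, one_apply]

theorem wM_sref_z (i : Fin D.rank) : wM D (sref D i) =
    (1 : Matrix _ _ ℤ).updateCol i fun j : Fin D.rank => (1 : Matrix _ _ ℤ) j i - A D (D.simple j) (D.simple i) := by
  ext j k
  rw [updateCol_apply]
  split_ifs with h <;> simp [h, wM, hD.cor_refl i _ (simple_lt j), hD.cor_simple, Pi.single_apply, one_apply, eq_comm]

theorem sum_det_wM_z [Fintype (W D)] (q : ℤ) :
    ∑ w : W D, (q • (1 : Matrix _ _ ℤ) - wM D w).det = Fintype.card (W D) * q ^ D.rank := by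
  let f (S : Finset (Fin D.rank)) (w : W D) : ℤ := 
    det (of fun j k => if j ∈ S then -wM D w j k else (q • (1 : Matrix _ _ ℤ)) j k)
  have h1 : ∀ w : W D, (q • (1 : Matrix _ _ ℤ) - wM D w).det = ∑ S, f S w := fun w => by
    rw [sub_eq_neg_add]; refine (detRowAlternating.toMultilinearMap.map_add_univ _ _).trans (sum_congr rfl fun S _ => ?_)
    exact congrArg det (Matrix.ext fun j k => ite_apply _ _ _ k)
  simp only [h1]
  rw [sum_comm, sum_eq_single ∅ (fun S _ hS => ?_) (by simp)]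
  · have : ∀ w, f ∅ w = q ^ D.rank := fun w => by
      rw [show q ^ D.rank = (q • (1 : Matrix (Fin D.rank) _ ℤ)).det by rw [det_smul, det_one, mul_one, Fintype.card_fin]]
      exact congrArg det (Matrix.ext fun j _ => by rw [of_apply, if_neg (notMem_empty j)])
    simp [this]
  obtain ⟨i, hi⟩ := nonempty_iff_ne_empty.2 hS
  have h2 : ∀ w, f S (w * ⟨_, sref_mem i⟩) = - f S w := fun w => by
    have h3 : ((1 : Matrix _ _ ℤ).updateCol i fun j : Fin D.rank => (1 : Matrix _ _ ℤ) j i -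
        if j ∈ S then A D (D.simple j) (D.simple i) else 0).det = -1 := by
      rw [← cramer_apply, cramer_one]; simp [hi, A_self (simple_lt i)]
    rw [← neg_one_mul, ← h3, ← det_mul]
    refine congrArg det (Matrix.ext fun j k => ?_)
    rw [updateCol_one_mul_z, Subgroup.coe_mul, wM_mul w.2, wM_sref_z]
    by_cases hj : j ∈ S <;> simp [hi, hj, updateCol_one_mul_z]
    ring
  have h3 := Equiv.sum_comp (Equiv.mulRight (⟨_, sref_mem i⟩ : W D)) (f S)
  simp only [Equiv.coe_mulRight, h2, sum_neg_distrib] at h3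
  omega

variable [hN : NFacts D]

theorem IsSC.HH_commute_z (hx : IsSC D x) {h h' : G} (hh : h ∈ HH D x) (hh' : h' ∈ HH D x) : Commute h h' := by
  obtain ⟨a, rfl⟩ := hx.toIsSt.exists_hProd hx.r3 hh
  obtain ⟨b, rfl⟩ := hx.toIsSt.exists_hProd hx.r3 hh'
  rw [Commute, SemiconjBy, ← hProd_mul hx.toIsSt hx.r3, mul_comm, hProd_mul hx.toIsSt hx.r3]

section preg

open Classical

variable [Fintype K] [Fintype G] {k Y : Type*} [Field k] [AddCommGroup Y] [Module k Y] (p : ℕ) [hp : Fact p.Prime] [CharP K p]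

include hp in
theorem IsSC.exists_wt_z [CharP k p] [IsAlgClosed k] [FiniteDimensional k Y] [Nontrivial Y] (hx : IsSC D x)
    (ρ : G →* Module.End k Y) : ∃ o m, m ≠ 0 ∧ IsWt_z D x ρ o m := by
  have hs := hx.toIsSt
  obtain ⟨v, -, h0, hv⟩ := H1.exists_fixed_of_isPGroup (hx.isPGroup_UU p) (ρ.comp (UU D x).subtype) ⊤ top_ne_bot fun _ _ _ => trivial
  obtain ⟨y, hy, h1, h2⟩ := exists_eig_z (S := ρ '' HH D x) (M := Fx_z D x ρ)
    (by rintro _ ⟨a, ha, rfl⟩ _ ⟨b, hb, rfl⟩; exact (hx.HH_commute_z ha hb).map ρ)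
    (fun h => h0 ((Submodule.eq_bot_iff _).1 h v fun u hu => hv ⟨u, hu⟩))
    (by rintro _ ⟨a, ha, rfl⟩ v hv; exact Fx_z.BB hs (HH_le_BB x ha) hv)
  obtain ⟨⟨w, hw⟩, ⟨n, hn, h3⟩, h4⟩ := Set.exists_max_image {w : W D | ∃ n, NRep D x n w ∧ TTw_z D x ρ w n y ≠ 0} (fun w => len D w)
    (Set.toFinite _) ⟨1, 1, NRep.one, by simpa [TT_one_z] using h1⟩
  choose c hc using (HEig_z.TTw_z (w := w) hs (fun h hh => h2 _ ⟨h, hh, rfl⟩) hn.mem_NN).exists_hom hs h3
  refine ⟨fun i => if D.IsNegRoot (w⁻¹ (D.simple i)) ∧ c i = 1 then none else some (c i), _, h3, hx.TT_mem_z hn hy, fun i t => ?_, fun i => ?_⟩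
  · rw [hc]; split_ifs with h <;> simp [h]
  · rcases pos_or_neg (W_lt (inv_mem hw) (simple_lt i)) with h | h
    · rw [if_neg fun h' => not_neg_of_pos h h'.1, ← Module.End.mul_apply, hx.tau_TT_z hw h]
      by_contra h5
      have := h4 ⟨_, mul_mem (sref_mem i) hw⟩ ⟨_, (NRep.simple x i).mul hs hn, by simpa using h5⟩
      simp [len_sref_mul_of_pos hw h] at this
    · rw [hx.tau_TT_neg_z (p := p) hn hy h (hc i)]
      simp only [h, true_and]
      split_ifs <;> rfl

include hp in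
theorem IsSC.exists_dual_z [CharP k p] [FiniteDimensional k Y] [Nontrivial Y] (hx : IsSC D x) (ρ : G →* Module.End k Y) :
    ∃ φ : Module.Dual k Y, φ ≠ 0 ∧ ∀ v ∈ VV D x, ∀ y, φ (ρ v y) = φ y := by
  obtain ⟨n, hn⟩ := NRep.exists_rep x (w0_mem (D := D))
  obtain ⟨φ, -, h0, hv⟩ := H1.exists_fixed_of_isPGroup (hx.isPGroup_UU p) ((Representation.dual ρ).comp (UU D x).subtype) ⊤ top_ne_bot
    fun _ _ _ => trivial
  refine ⟨φ ∘ₗ ρ n, fun h => h0 (LinearMap.ext fun y => ?_), fun v hv' y => ?_⟩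
  · have : φ (ρ n (ρ n⁻¹ y)) = 0 := LinearMap.congr_fun h (ρ n⁻¹ y)
    rwa [← rho_mul_z, mul_inv_cancel, map_one] at this
  · have : φ (ρ (n * v * n⁻¹)⁻¹⁻¹ (ρ n y)) = φ (ρ n y) :=
      LinearMap.congr_fun (hv ⟨_, inv_mem (IsFaith.conj_VV_mem_UU hx.toIsSt hn hv')⟩) (ρ n y)
    rwa [inv_inv, ← rho_mul_z, inv_mul_cancel_right, rho_mul_z] at this

/-- The number of semisimple classes of a simply connected group. -/
theorem IsSC.card_preg_z (hx : IsSC D x) :
    Nat.card {c : ConjClasses G // ∃ g, ConjClasses.mk g = c ∧ (orderOf g).Coprime p} = Fintype.card K ^ D.rank := by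
  have hs := hx.toIsSt
  have hG := hx.gen
  let k := AlgebraicClosure (ZMod p)
  obtain ⟨S⟩ := exists_wedd (k := k) (G := G)
  have h1 : ∀ o, ∃ i v, v ≠ 0 ∧ IsWt_z D x (S.ρ i) o v := fun o => by
    obtain ⟨m, hm, h⟩ := hx.toIsFaith.exists_of_wt_z (p := p) (k := k) hx.inj o
    obtain ⟨i, v, hv, h2⟩ := S.exists_vec _ hm
    exact ⟨i, v, hv, h.transfer h2⟩
  choose f v hv hf using h1
  have hb : Function.Bijective f := by
    refine ⟨fun o o' e => ?_, fun i => ?_⟩
    · obtain ⟨m, hm, h⟩ : ∃ m ≠ 0, IsWt_z D x (S.ρ (f o)) o' m := e ▸ ⟨_, hv o', hf o'⟩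
      obtain ⟨o₁, ξ, h0, hξ⟩ := hx.exists_wt_z p (Representation.dual (S.ρ (f o)))
      obtain ⟨n, hn⟩ := NRep.exists_rep x (w0_mem (D := D))
      have key : ∀ z ∈ Fx_z D x (S.ρ (f o)), ξ (S.ρ (f o) n⁻¹ z) = 0 → z = 0 := fun z hz h2 => by
        by_contra h3
        refine h0 (S.irr h3 fun g => ?_)
        have := hξ.dual hs (φ := Module.Dual.eval k _ (S.ρ (f o) n⁻¹ z)) (fun u hu η => by
          change η (S.ρ _ u⁻¹ (S.ρ _ n⁻¹ z)) = η (S.ρ _ n⁻¹ z)
          conv_rhs => rw [← hz _ (inv_mem (IsFaith.conj_VV_mem_UU hs hn hu))]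
          rw [← rho_mul_z, ← rho_mul_z]
          exact congrArg (fun g => η (S.ρ _ g z)) (by group)) h2 (g := n⁻¹ * g⁻¹) (hG ▸ Subgroup.mem_top _)
        change ξ (S.ρ _ (n⁻¹ * g⁻¹)⁻¹ (S.ρ _ n⁻¹ z)) = 0 at this
        rwa [← rho_mul_z, _root_.mul_inv_rev, inv_inv, inv_inv, mul_inv_cancel_right] at this
      have h2 := key (ξ (S.ρ (f o) n⁻¹ m) • v o - ξ (S.ρ (f o) n⁻¹ (v o)) • m)
        (sub_mem (((hf o).smul _).fx) ((h.smul _).fx)) (by simp [mul_comm])
      exact ((hf o).smul _).unique (sub_eq_zero.1 h2 ▸ h.smul _) (smul_ne_zero (fun h3 => hm (key m h.fx h3)) (hv o))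
    · obtain ⟨o, m, hm, h⟩ := hx.exists_wt_z p (S.ρ i)
      refine ⟨o, by_contra fun hne => ?_⟩
      obtain ⟨φ, h0, hφ⟩ := hx.exists_dual_z p (S.ρ i)
      obtain ⟨ψ, h1, hψ⟩ := hx.exists_dual_z p (S.ρ (f o))
      have h2 : φ m ≠ 0 := fun h2 => h0 (S.irr hm fun g => h.dual hs hφ h2 (hG ▸ Subgroup.mem_top g))
      let σ : G →* Module.End k (_ × _) := Representation.prod (S.ρ i) (S.ρ (f o))
      have h3 : IsWt_z D x σ o (m, v o) := ⟨fun u hu => Prod.ext (h.fx u hu) ((hf o).fx u hu), fun j t => Prod.ext (h.h j t) ((hf o).h j t),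
        fun j => Prod.ext (by simpa [tau_z, Prod.fst_sum, σ] using h.t j) (by simpa [tau_z, Prod.snd_sum, σ] using (hf o).t j)⟩
      refine smul_ne_zero h2 h1 (S.irr₂ hne (hv o) (η := ψ (v o) • φ) (w := m) fun g => ?_)
      have := h3.dual hs (φ := (φ m • ψ) ∘ₗ LinearMap.snd k _ _ - (ψ (v o) • φ) ∘ₗ LinearMap.fst k _ _)
        (fun u hu z => by simp [σ, hφ u hu, hψ u hu]) (by simp [mul_comm]) (hG ▸ Subgroup.mem_top g)
      exact sub_eq_zero.1 this
  have : NeZero ((Monoid.exponent Kˣ : ℕ) : k) := ⟨fun h => by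
    have h1 := (Nat.cast_dvd_cast (α := k) (Group.exponent_dvd_card (G := Kˣ))).trans dvd_rfl
    rw [h, zero_dvd_iff, Fintype.card_units, Nat.cast_sub Fintype.card_pos, card_cast_eq_zero_z (p := p)] at h1
    simp at h1⟩
  have : Finite (Kˣ →* kˣ) := Nat.finite_of_card_ne_zero (by
    rw [CommGroup.card_monoidHom_of_hasEnoughRootsOfUnity]; exact Nat.card_pos.ne')
  rw [S.card_eq p, ← Nat.card_fin S.n, ← Nat.card_eq_of_bijective f hb, Nat.card_fun, Finite.card_option,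
    CommGroup.card_monoidHom_of_hasEnoughRootsOfUnity, Nat.card_eq_fintype_card, Fintype.card_units, Nat.sub_add_cancel Fintype.card_pos,
    Nat.card_fin]

end preg

omit hD hN in
theorem isConj_orderOf_z {a b : G} (h : IsConj a b) : orderOf a = orderOf b := by
  obtain ⟨c, rfl⟩ := isConj_iff.1 h
  exact ((MulAut.conj c).orderOf_eq a).symm

omit hD hN in
theorem tor_eq_one_z (p : ℕ) [hp : Fact p.Prime] [CharP K p] {a : Fin l → Kˣ} {k : ℕ} (h : a ^ p ^ k = 1) : a = 1 :=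
  funext fun i => Units.ext (iterateFrobenius_inj K p k (by
    rw [iterateFrobenius_def, ← Units.val_pow_eq_pow_val, ← Pi.pow_apply, h]; exact (map_one _).symm))

omit hD hN in
theorem not_dvd_orderOf_tor_z (p : ℕ) [hp : Fact p.Prime] [CharP K p] {a : Fin l → Kˣ} (ha : IsOfFinOrder a) :
    ¬ p ∣ orderOf a := fun h => by
  have h1 := orderOf_pow_orderOf_div ha.orderOf_pos.ne' h
  rw [tor_eq_one_z p (k := 1) (a := a ^ (orderOf a / p)) (by rw [pow_one, ← pow_mul, Nat.div_mul_cancel h, pow_orderOf_eq_one]), orderOf_one] at h1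
  exact hp.out.one_lt.ne h1

theorem IsSC.orderOf_hProd_z (hx : IsSC D x) (a : Fin D.rank → Kˣ) : orderOf (hProd D x a) = orderOf a := by
  rw [← hx.toIsSt.hProdHom_eq hx.r3]
  exact orderOf_injective _ (fun a b e => hx.hP_inj (by simpa only [hx.toIsSt.hProdHom_eq] using e)) a

theorem mact_wM_mul_z (hw : w ∈ W D) (v : Equiv.Perm ℕ) (a : Fin D.rank → Kˣ) :
    mact (wM D (w * v)) a = mact (wM D w) (mact (wM D v) a) := by rw [wM_mul hw, mact_mul]

theorem mact_wM_one_z (a : Fin D.rank → Kˣ) : mact (wM D 1) a = a := by rw [wM_one, mact_one]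

theorem IsSC.exists_W_of_isConj_z (hx : IsSC D x) {a b : Fin D.rank → Kˣ} (h : IsConj (hProd D x a) (hProd D x b)) :
    ∃ w ∈ W D, mact (wM D w) a = b := by
  obtain ⟨g, hg⟩ := isConj_iff.1 h
  obtain ⟨w, hw, -, -, n, hn, -, -, -, h1⟩ := hx.conj_decomp (hx.gen.ge (Subgroup.mem_top g)) hg
  exact ⟨w, hw, hx.hP_inj ((hn.conj_hProd hx.toIsSt hx.r3 a).symm.trans h1)⟩

variable {φ : G →* G} {P : Matrix (Fin D.rank) (Fin D.rank) ℤ} {q : ℕ} {G₀ : Type*} [Group G₀] {j : G₀ →* G}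

theorem Model.exists_isConj_z (h : Model D x φ P q j) (hw : w ∈ W D) {a : Fin D.rank → Kˣ}
    (ha : a ^ q = mact (wM D w * P) a) : ∃ y, IsConj (j y) (hProd D x a) := by
  obtain ⟨n, hn⟩ := NRep.exists_rep x hw
  obtain ⟨g, hg⟩ := h.lang n⁻¹
  obtain ⟨y, hy⟩ := (h.conj hn hg).hP_mem.2 ha
  exact ⟨y, isConj_iff.2 ⟨g⁻¹, hy⟩⟩

theorem finite_tor_z [IsAlgClosed K] (hq : (q : K) = 0) {M : Matrix (Fin l) (Fin l) ℤ} (hM : (M.det : K) ≠ 0) :
    Finite {a : Fin l → Kˣ // a ^ q = mact M a} := Nat.finite_of_card_ne_zero (by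
  rw [card_tor_z hq hM, Int.natAbs_ne_zero]; exact fun h => det_cast_ne_z hq hM (by rw [h, Int.cast_zero]))

theorem isOfFinOrder_tor_z [IsAlgClosed K] (hq : (q : K) = 0) {M : Matrix (Fin l) (Fin l) ℤ} (hM : (M.det : K) ≠ 0)
    {a : Fin l → Kˣ} (ha : a ^ q = mact M a) : IsOfFinOrder a := by
  have : Finite (MonoidHom.eqLocus (powMonoidHom q) (mact (K := K) M)) := finite_tor_z hq hM
  exact (Subgroup.subtype _).isOfFinOrder (isOfFinOrder_of_finite
    (⟨a, ha⟩ : MonoidHom.eqLocus (powMonoidHom q) (mact (K := K) M)))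

/-- The semisimple classes of the finite group correspond to the stable orbits of the Weyl group on the torus. -/
theorem Model.ss_classes_z [IsAlgClosed K] [Finite G₀] (h : Model D x φ 1 q j) (p : ℕ) [hp : Fact p.Prime] [CharP K p]
    (hq : (q : K) = 0) (hc : Nat.card {c : ConjClasses G₀ // ∃ g, ConjClasses.mk g = c ∧ (orderOf g).Coprime p} = q ^ D.rank)
    {y : G₀} (hy : ¬ p ∣ orderOf y) : (∃ w ∈ W D, ∃ a, a ^ q = mact (wM D w) a ∧ IsConj (j y) (hProd D x a)) ∧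
      ∀ z, IsConj (j y) (j z) → IsConj y z := by
  classical
  let _ := Fintype.ofFinite (W D)
  have hf := fun w : W D => finite_tor_z hq (det_wM_ne_z (K := K) w.2)
  let C := {c : ConjClasses G₀ // ∃ g, ConjClasses.mk g = c ∧ (orderOf g).Coprime p}
  let Z := Σ w : W D, {a : Fin D.rank → Kˣ // a ^ q = mact (wM D w) a}
  let _ := Fintype.ofFinite C
  let _ := Fintype.ofFinite Z
  have h1 : ∀ z : Z, ∃ y, IsConj (j y) (hProd D x z.2.1) := fun z => h.exists_isConj_z z.1.2 (by simpa using z.2.2)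
  choose f hf using h1
  have h2 : ∀ z, (orderOf (f z)).Coprime p := fun z => by
    rw [← orderOf_injective j h.inj, isConj_orderOf_z (hf z), h.sc.orderOf_hProd_z, Nat.coprime_comm, hp.out.coprime_iff_not_dvd]
    exact not_dvd_orderOf_tor_z p (isOfFinOrder_tor_z hq (det_wM_ne_z z.1.2) z.2.2)
  let F (z : Z) : C := ⟨_, f z, rfl, h2 z⟩
  have h3 : ∀ g : G, (univ.filter fun z : Z => IsConj g (hProd D x z.2.1)).card ≤ Fintype.card (W D) := fun g => by
    rcases (univ.filter fun z : Z => IsConj g (hProd D x z.2.1)).eq_empty_or_nonempty with e | ⟨z₀, h0⟩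
    · rw [e]; exact Nat.zero_le _
    have h4 : ∀ a, IsConj g (hProd D x a) → ∃ w : W D, mact (wM D w) z₀.2.1 = a := fun a ha => by
      simpa using h.sc.exists_W_of_isConj_z ((mem_filter.1 h0).2.symm.trans ha)
    choose! u hu using h4
    have h5 : ∀ z : Z, IsConj g (hProd D x z.2.1) →
        mact (wM D (u z.2.1 * z₀.1⁻¹ * (u z.2.1)⁻¹ * z.1 * u z.2.1 : W D)) z₀.2.1 = z.2.1 := fun z hz => by
      simp only [Subgroup.coe_mul, mul_assoc, mact_wM_mul_z (Subtype.prop _), hu _ hz, ← z.2.2]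
      rw [show z.2.1 ^ q = mact (wM D (u z.2.1)) (mact (wM D z₀.1) z₀.2.1) by rw [← z₀.2.2, map_pow, hu _ hz]]
      simp only [← mact_wM_mul_z (Subtype.prop _), ← Subgroup.coe_mul, inv_mul_cancel_left, mul_inv_cancel_left, inv_mul_cancel,
        mul_one, hu _ hz]
    rw [← card_univ]
    refine card_le_card_of_injOn (fun z => u z.2.1 * z₀.1⁻¹ * (u z.2.1)⁻¹ * z.1 * u z.2.1) (by simp) fun z hz z' hz' e => ?_
    have h6 : z.2.1 = z'.2.1 := by rw [← h5 z (by simpa using hz), ← h5 z' (by simpa using hz')]; exact congrArg (fun w : W D => mact (wM D w) z₀.2.1) e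
    obtain ⟨w, a, _⟩ := z
    obtain ⟨w', a', _⟩ := z'
    obtain rfl : a = a' := h6
    obtain rfl : w = w' := by simpa using e
    rfl
  have h4 : ∀ c : C, (univ.filter fun z => F z = c) ⊆ univ.filter fun z : Z => IsConj (j c.2.choose) (hProd D x z.2.1) :=
    fun c z hz => by
      refine mem_filter.2 ⟨mem_univ _, (j.map_isConj (ConjClasses.mk_eq_mk_iff_isConj.1 ?_)).trans (hf z)⟩
      rw [c.2.choose_spec.1, ← (mem_filter.1 hz).2]
  have h5 : ∀ c : C, Fintype.card (W D) ≤ (univ.filter fun z => F z = c).card := fun c => by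
    by_contra h6
    have h7 := sum_lt_sum (s := univ) (fun c _ => (card_le_card (h4 c)).trans (h3 _)) ⟨c, mem_univ _, not_le.1 h6⟩
    rw [← card_eq_sum_card_fiberwise (by simp), sum_const, card_univ, card_univ, ← Nat.card_eq_fintype_card (α := C), hc,
      ← Nat.card_eq_fintype_card (α := Z), Nat.card_sigma, smul_eq_mul] at h7
    simp only [card_tor_z hq (det_wM_ne_z (Subtype.prop _))] at h7
    have h8 := sum_le_sum (s := univ) fun (w : W D) _ => Int.le_natAbs (a := ((q : ℤ) • (1 : Matrix _ _ ℤ) - wM D w).det)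
    rw [sum_det_wM_z, ← Nat.cast_sum] at h8
    rw [mul_comm] at h7
    exact absurd h8 (not_le.2 (by exact_mod_cast h7))
  have h6 : ∀ y, ¬ p ∣ orderOf y → ∀ z : Z, IsConj (j y) (hProd D x z.2.1) ↔ IsConj y (f z) := fun y hy z => by
    let c : C := ⟨_, y, rfl, (hp.out.coprime_iff_not_dvd.2 hy).symm⟩
    have h7 := congrArg (z ∈ ·) (eq_of_subset_of_card_le (h4 c) ((h3 _).trans (h5 c)))
    have h8 := ConjClasses.mk_eq_mk_iff_isConj.1 c.2.choose_spec.1
    simp only [mem_filter, mem_univ, true_and, eq_iff_iff] at h7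
    exact ⟨fun h9 => (ConjClasses.mk_eq_mk_iff_isConj.1 (congrArg Subtype.val (h7.2 ((j.map_isConj h8).trans h9)))).symm,
      fun h9 => (j.map_isConj h9).trans (hf z)⟩
  obtain ⟨z, hz⟩ := card_pos.1 (Fintype.card_pos.trans_le (h5 ⟨_, y, rfl, (hp.out.coprime_iff_not_dvd.2 hy).symm⟩))
  have h7 := (ConjClasses.mk_eq_mk_iff_isConj.1 (congrArg Subtype.val (mem_filter.1 hz).2)).symm
  refine ⟨⟨_, z.1.2, _, z.2.2, (h6 y hy z).2 h7⟩, fun y' h8 => h7.trans ((h6 y' ?_ z).1 (h8.symm.trans ((h6 y hy z).2 h7))).symm⟩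
  rwa [← orderOf_injective j h.inj, ← isConj_orderOf_z h8, orderOf_injective j h.inj]

theorem SCov.ss_classes_z {D' : ChevalleyDatum} [RootFacts D'] [NFacts D'] [MatFacts D'] [ChainFacts D'] {e : ℕ → ℕ} {ε : ℕ → ℤ}
    (h : SCov D D' e ε) [IsAlgClosed K] {F : Type*} [Field F] [Fintype F] [Algebra F K] (p : ℕ) [Fact p.Prime] [CharP F p]
    {y : sG D D' F e ε} (hy : ¬ p ∣ orderOf y) : (∃ w ∈ W D, ∃ a, a ^ Fintype.card F = mact (wM D w) a ∧
      IsConj (mapS D D' e ε (algebraMap F K) y) (hProd D (ys D D' K e ε) a)) ∧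
      ∀ z, IsConj (mapS D D' e ε (algebraMap F K) y) (mapS D D' e ε (algebraMap F K) z) → IsConj y z := by
  obtain ⟨-, -, -, -, φ, hφ⟩ := exists_frob_of (K := K) (F := F)
  have := charP_of_injective_algebraMap (algebraMap F K).injective p
  have hx := h.isSC (K := F)
  have : Finite (sG D D' F e ε) := Set.finite_univ_iff.1 (by
    have := hx.toIsSt.finite_GG; rwa [hx.gen] at this)
  let _ := Fintype.ofFinite (sG D D' F e ε)
  exact (h.model hφ).ss_classes_z p (by rw [← map_natCast (algebraMap F K), FiniteField.cast_card_eq_zero, map_zero])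
    (hx.card_preg_z p) hy

end Cfsg.Agent.H8
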