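import Cfsg.Agent.H7.Brauer
import Cfsg.Agent.H7.Parab
import Cfsg.Agent.H7.Card

/-! Weight vectors of modules in the defining characteristic (Curtis, Richen). -/

set_option autoImplicit false
set_option linter.unusedSectionVars false

namespace Cfsg.Agent.H7

open Cfsg.Lie Cfsg.Agent.H8 Finset Classical

theorem exists_eig_z {k Y : Type*} [Field k] [IsAlgClosed k] [AddCommGroup Y] [Module k Y] [FiniteDimensional k Y]
    {S : Set (Module.End k Y)} (hS : ∀ f ∈ S, ∀ g ∈ S, Commute f g) {M : Submodule k Y} (hM : M ≠ ⊥)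
    (hi : ∀ f ∈ S, ∀ v ∈ M, f v ∈ M) : ∃ v ∈ M, v ≠ 0 ∧ ∀ f ∈ S, ∃ a : k, f v = a • v := by
  obtain ⟨N, ⟨h1, h2, h3⟩, h4⟩ := exists_minimal_of_wellFoundedLT
    (fun N : Submodule k Y => N ≤ M ∧ N ≠ ⊥ ∧ ∀ f ∈ S, ∀ v ∈ N, f v ∈ N) ⟨M, le_rfl, hM, hi⟩
  obtain ⟨v, hv, h0⟩ := Submodule.exists_mem_ne_zero_of_ne_bot h2
  refine ⟨v, h1 hv, h0, fun f hf => ?_⟩
  have := Submodule.nontrivial_iff_ne_bot.2 h2
  obtain ⟨a, ha⟩ := Module.End.exists_eigenvalue (f.restrict (h3 f hf))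
  obtain ⟨z, hz⟩ := ha.exists_hasEigenvector
  refine ⟨a, Module.End.mem_eigenspace_iff.1 (h4 (y := N ⊓ f.eigenspace a) ⟨inf_le_left.trans h1, fun h => hz.2 (Subtype.ext
    ((Submodule.eq_bot_iff _).1 h z ⟨z.2, Module.End.mem_eigenspace_iff.2 (congrArg Subtype.val hz.apply_eq_smul)⟩)),
    fun g hg v hv => ⟨h3 g hg v hv.1, ?_⟩⟩ inf_le_left hv).2⟩
  exact Module.End.mem_eigenspace_iff.2 (by
    rw [← Module.End.mul_apply, hS f hf g hg, Module.End.mul_apply, Module.End.mem_eigenspace_iff.1 hv.2, map_smul])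

variable (D : ChevalleyDatum) {K : Type*} [Field K] [Fintype K] {G : Type*} [Group G] [Fintype G] [hD : RootFacts D] [hN : NFacts D]
  (x : ℕ → K → G) {k Y : Type*} [Field k] [AddCommGroup Y] [Module k Y] (ρ : G →* Module.End k Y)

/-- The vectors fixed by `U`. -/
def Fx_z : Submodule k Y where
  carrier := {y | ∀ u ∈ UU D x, ρ u y = y}
  add_mem' ha hb u hu := by rw [map_add, ha u hu, hb u hu]
  zero_mem' u _ := map_zero _
  smul_mem' c y hy u hu := by rw [map_smul, hy u hu]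

/-- The operator `T_i`. -/
noncomputable def tau_z (i : Fin D.rank) : Module.End k Y := ∑ t : K, ρ (x (D.simple i) t * nE D x (D.simple i) 1)

/-- The operator `T_w`. -/
noncomputable def TTw_z (w : Equiv.Perm ℕ) (g : G) : Module.End k Y := ∑ u : Um D x w⁻¹, ρ (u * g)

/-- Weight vectors. -/
structure IsWt_z (o : Fin D.rank → Option (Kˣ →* kˣ)) (m : Y) : Prop where
  fx : m ∈ Fx_z D x ρ
  h : ∀ (i : Fin D.rank) (t : Kˣ), ρ (hE D x (D.simple i) t) m = ((o i).getD 1 t : k) • m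
  t : ∀ i, tau_z D x ρ i m = ((o i).elim (-1) fun _ => 0 : k) • m

/-- Eigenvectors of `H`. -/
def HEig_z (m : Y) : Prop := ∀ h ∈ HH D x, ∃ a : k, ρ h m = a • m

variable {D x ρ} {w : Equiv.Perm ℕ} {g h n : G} {y m : Y} {o o' : Fin D.rank → Option (Kˣ →* kˣ)}

theorem rho_mul_z (a b : G) (y : Y) : ρ (a * b) y = ρ a (ρ b y) := by rw [map_mul]; rfl

theorem TT_mul_z (a b : G) (y : Y) : TTw_z D x ρ w (a * b) y = TTw_z D x ρ w a (ρ b y) := by
  simp only [TTw_z, LinearMap.sum_apply, ← mul_assoc, rho_mul_z _ b]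

theorem Fx_z.BB (hx : IsSt D x) (hg : g ∈ BB D x) (hy : y ∈ Fx_z D x ρ) : ρ g y ∈ Fx_z D x ρ := fun u hu => by
  rw [← rho_mul_z, show u * g = g * (g⁻¹ * u * g⁻¹⁻¹) by group, rho_mul_z, hy _ (IsFaith.BB_conj_UU hx (inv_mem hg) hu)]

theorem HEig_z.BB (hx : IsSt D x) (h1 : HEig_z D x ρ m) (h2 : m ∈ Fx_z D x ρ) (hg : g ∈ BB D x) : ∃ a : k, ρ g m = a • m := by
  obtain ⟨t, ht, u, hu, rfl⟩ := hx.mem_BB'.1 hg
  rw [rho_mul_z, h2 u hu]; exact h1 t ht

theorem rho_TT_z (hx : IsSt D x) (hh : h ∈ HH D x) : ρ h * TTw_z D x ρ w g = TTw_z D x ρ w (h * g) := by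
  rw [TTw_z, TTw_z, mul_sum]
  exact Fintype.sum_equiv ((Um D x w⁻¹).normalizerMonoidHom ⟨h, hx.HH_le_normalizer _ hh⟩).toEquiv _ _ fun u => by
    rw [← map_mul]; exact congrArg ρ (show _ = h * u * h⁻¹ * (h * g) by group)

theorem HEig_z.TTw_z (hx : IsSt D x) (hy : HEig_z D x ρ y) (hn : n ∈ NN D x) : HEig_z D x ρ (TTw_z D x ρ w n y) := fun h hh => by
  obtain ⟨a, ha⟩ := hy _ (hx.NN_conj_HH' hn hh)
  exact ⟨a, by rw [← Module.End.mul_apply, rho_TT_z hx hh, show h * n = n * (n⁻¹ * h * n) by group, TT_mul_z, ha, map_smul]⟩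

theorem TT_one_z : TTw_z D x ρ 1 g = ρ g := by
  have h : ∀ u : Um D x (1 : Equiv.Perm ℕ)⁻¹, u = 1 := fun u => Subtype.ext (Subgroup.mem_bot.1
    ((XS_le (H := ⊥)).2 (fun r hr => absurd hr.2 (not_neg_of_pos hr.1)) u.2))
  rw [TTw_z, Fintype.sum_eq_single 1 fun u hu => absurd (h u) hu]; simp

theorem IsFaith.tau_TT_z (hx : IsFaith D x) (hw : w ∈ W D) {i : Fin D.rank} (hi : D.IsPosRoot (w⁻¹ (D.simple i))) :
    tau_z D x ρ i * TTw_z D x ρ w g = TTw_z D x ρ (sref D i * w) (nE D x (D.simple i) 1 * g) := by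
  have hs := hx.toIsSt
  have hn := NRep.simple x i
  have h1 : ∀ u ∈ Um D x w⁻¹, nE D x (D.simple i) 1 * u * (nE D x (D.simple i) 1)⁻¹ ∈
      XS x ({r | D.IsPosRoot r ∧ D.IsNegRoot ((sref D i * w)⁻¹ r)} ∩ {r | r ≠ D.simple i}) := fun u hu =>
    hn.conj_XS hs (fun r hr => And.intro (And.intro (sref_pos hr.1 fun e => not_neg_of_pos hi (e ▸ hr.2)) (by
      rw [mul_inv_rev, Equiv.Perm.mul_apply, perm_inv_apply]; exact hr.2)) fun e => not_pos_of_neg (neg_simple_neg i) (by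
        rw [← sref_simple, ← show _ = D.simple i from e, ← Equiv.Perm.mul_apply, sref_mul_self]; exact hr.1)) hu
  have h2 : D.IsNegRoot ((sref D i * w)⁻¹ (D.simple i)) := by
    rw [mul_inv_rev, sref_inv]; exact mul_sref_neg_of_pos (inv_mem hw) hi
  rw [tau_z, TTw_z, TTw_z, sum_mul_sum, ← Fintype.sum_prod_type']
  refine Fintype.sum_bijective (fun a => ⟨x (D.simple i) a.1 * (nE D x (D.simple i) 1 * a.2 * (nE D x (D.simple i) 1)⁻¹),
    mul_mem (x_mem_XS (And.intro (simple_pos i) h2) _) (XS_mono x Set.inter_subset_left (h1 _ a.2.2))⟩)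
    ⟨fun a b e => ?_, fun u => ?_⟩ _ _ fun a => by rw [← map_mul]; exact congrArg ρ (by simp [mul_assoc])
  · have e' := congrArg Subtype.val e
    have h3 : b.1 - a.1 = 0 := by
      by_contra h3
      refine hx.x_simple_notMem i h3 (XS_mono x (S := {r | D.IsPosRoot r ∧ D.IsNegRoot ((sref D i * w)⁻¹ r)} ∩ {r | r ≠ D.simple i})
        (fun r hr => And.intro hr.1.1 hr.2) ?_)
      rw [sub_eq_neg_add, hs.add, hs.neg, inv_mul_eq_iff_eq_mul.2 (eq_mul_inv_of_mul_eq e'.symm |>.trans (mul_assoc _ _ _))]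
      exact mul_mem (h1 _ a.2.2) (inv_mem (h1 _ b.2.2))
    refine Prod.ext (sub_eq_zero.1 h3).symm (Subtype.ext ?_)
    simpa [sub_eq_zero.1 h3] using e'
  · obtain ⟨a, ha, b, hb, e⟩ := hs.exists_mul (S₁ := {D.simple i}) (S₂ := {r | r ≠ D.simple i})
      (isClosed_Um (inv_mem (mul_mem (sref_mem i) hw))) (one_mem _) (fun _ hk => hk.1) (fun k _ => _root_.em (k = D.simple i)) u.2
    obtain ⟨t, rfl⟩ := hs.mem_XS_singleton (XS_mono x Set.inter_subset_right ha)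
    refine ⟨⟨t, _, hn.conj_XS' hs (T := {r | D.IsPosRoot r ∧ D.IsNegRoot (w⁻¹ r)}) (fun r hr => ⟨?_, ?_⟩) hb⟩,
      Subtype.ext (by simp [e, mul_assoc])⟩
    · rw [sref_inv]; exact sref_pos hr.1.1 hr.2
    · simpa only [mul_inv_rev, Equiv.Perm.mul_apply] using hr.1.2

theorem x_tau_z (hx : IsSt D x) (i : Fin D.rank) (a : K) : ρ (x (D.simple i) a) * tau_z D x ρ i = tau_z D x ρ i := by
  rw [tau_z, mul_sum, ← Equiv.sum_comp (Equiv.addLeft a) fun t => ρ (x (D.simple i) t * _)]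
  simp only [← map_mul, ← mul_assoc, ← hx.add, Equiv.coe_addLeft]

theorem Fx_z.tau_z (hx : IsSt D x) (i : Fin D.rank) (hy : y ∈ Fx_z D x ρ) : tau_z D x ρ i y ∈ Fx_z D x ρ := fun u hu => by
  obtain ⟨v, hv, a, rfl⟩ := hx.UU_split' i hu
  conv_rhs => rw [← x_tau_z hx i a]
  rw [rho_mul_z, Module.End.mul_apply, H7.tau_z, LinearMap.sum_apply, map_sum]
  refine congrArg _ (sum_congr rfl fun t _ => ?_)
  have := (NRep.simple x i).conj_XS' hx (T := {r | D.IsPosRoot r})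
    (fun s hs => by rw [sref_inv]; exact sref_pos hs.1 hs.2) (IsFaith.Ui_normal hx i (inv_mem (x_mem_BB x (simple_pos i) t)) hv)
  conv_rhs => rw [← hy _ this, ← rho_mul_z]
  rw [← rho_mul_z]
  generalize x (D.simple i) t = z
  exact congrArg (ρ · y) (by group)

theorem IsFaith.TT_mem_z (hx : IsFaith D x) (hn : NRep D x n w) (hy : y ∈ Fx_z D x ρ) : TTw_z D x ρ w n y ∈ Fx_z D x ρ := by
  refine len_induction_left (P := fun w => ∀ n, NRep D x n w → TTw_z D x ρ w n y ∈ Fx_z D x ρ) (fun n hn => ?_)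
    (fun w hw i hi ih n hn => ?_) hn.mem_W n hn
  · rw [TT_one_z]; exact Fx_z.BB hx.toIsSt (HH_le_BB x (hn.mem_HH hx.toIsSt)) hy
  · have := ((NRep.simple x i).inv hx.toIsSt).mul hx.toIsSt hn
    rw [inv_mul_cancel_left] at this
    rw [← mul_inv_cancel_left (nE D x (D.simple i) 1) n, ← hx.tau_TT_z hw hi]
    exact Fx_z.tau_z hx.toIsSt i (ih _ this)

theorem rho_tau_z (hx : IsSt D x) (i : Fin D.rank) (hh : h ∈ HH D x) :
    ρ h * tau_z D x ρ i = tau_z D x ρ i * ρ ((nE D x (D.simple i) 1)⁻¹ * h * nE D x (D.simple i) 1) := by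
  obtain ⟨a, ha⟩ := hx.acts_of_mem_HH hh
  rw [tau_z, mul_sum, sum_mul, ← Equiv.sum_comp (Equiv.mulLeft₀ _ (torChar a (wt D (D.simple i))).ne_zero)
    fun t => ρ (x (D.simple i) t * _) * _]
  refine sum_congr rfl fun t _ => ?_
  rw [← map_mul, ← map_mul, Equiv.mulLeft₀_apply, ← show _ = x (D.simple i) _ from ha (D.simple i) t]
  generalize x (D.simple i) t = z
  exact congrArg ρ (by group)

variable {p : ℕ} [hp : Fact p.Prime] [CharP K p] [CharP k p]

include hp in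
theorem card_cast_eq_zero_z : (Fintype.card K : k) = 0 := by
  obtain ⟨n, -, h⟩ := FiniteField.card K p
  rw [h, Nat.cast_pow, CharP.cast_eq_zero, zero_pow n.ne_zero]

include hp in
theorem tau_tau_z (hx : IsSt D x) (i : Fin D.rank) (hy : y ∈ Fx_z D x ρ) :
    tau_z D x ρ i (tau_z D x ρ i y) = ∑ a : Kˣ, ρ (hE D x (D.simple i) a) (tau_z D x ρ i y) := by
  have h3 := hx.R3_of_finite
  have hi := simple_lt i (D := D)
  set n := nE D x (D.simple i) 1 with hn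
  have h0 : n * n ∈ HH D x := hx.nE_sq _ ▸ inv_mem (hE_mem_HH x hi (by simp))
  have h1 : ∀ z, tau_z D x ρ i z = ∑ s : K, ρ (x (D.simple i) s) (ρ n z) := fun z => by
    simp only [tau_z, LinearMap.sum_apply, rho_mul_z, hn]
  rw [h1 (tau_z D x ρ i y), h1 y, map_sum, ← h1 y]
  simp only [map_sum]
  rw [sum_comm, Fintype.sum_eq_sum_compl_add 0, hx.zero, map_one, Module.End.one_apply, ← rho_mul_z,
    sum_congr rfl fun s _ => Fx_z.BB hx (HH_le_BB x h0) hy _ (x_mem_UU x (simple_pos i) s), sum_const, card_univ,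
    ← Nat.cast_smul_eq_nsmul k, card_cast_eq_zero_z (p := p), zero_smul, add_zero]
  refine (sum_bij (fun (a : Kˣ) _ => -(a : K)⁻¹) (by simp) (by simp [Units.ext_iff]) (fun t ht => ⟨Units.mk0 (-t⁻¹) (by simpa using ht),
    mem_univ _, by simp⟩) fun a _ => ?_).symm
  have h4 : n * x (D.simple i) (-(a : K)⁻¹) * n = x (D.simple i) a * hE D x (D.simple i) (-a) * n * (x (D.simple i) a * (n * n)) := by
    rw [show n * x _ _ * n = n * x (D.simple i) (-(a : K)⁻¹) * n⁻¹ * (n * n) by group, hx.nE_conj_self hi one_ne_zero, mul_assoc (x _ _),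
      ← hx.nE_eq, nE]
    simp [← mul_assoc, ← hx.add, hx.zero, hx.neg]
  have h5 : ∀ s, ρ (x (D.simple i) s) (ρ n (ρ (x (D.simple i) (-(a : K)⁻¹)) (ρ n y))) =
      ρ (x (D.simple i) (s + a)) (ρ n (ρ (n⁻¹ * (hE D x (D.simple i) a) * n) y)) := fun s => by
    rw [← rho_mul_z n, ← rho_mul_z _ n, h4, rho_mul_z _ (_ * _), rho_mul_z _ (n * n), Fx_z.BB hx (HH_le_BB x h0) hy _ (x_mem_UU x (simple_pos i) _),
      hx.add, ← mul_neg_one (a : K), ← h3 _ hi _ _ a.ne_zero (by simp), ← inv_inv (hE D x _ (-1)), ← hx.nE_sq]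
    simp only [← rho_mul_z, ← hn]
    exact congrArg (ρ · y) (by group)
  rw [sum_congr rfl fun s _ => h5 s, ← Module.End.mul_apply, rho_tau_z hx i (hE_mem_HH x hi a.ne_zero), Module.End.mul_apply, h1]
  exact (Equiv.sum_comp (Equiv.addRight (a : K)) fun s => ρ (x (D.simple i) s) _).symm

include hp in
theorem tau_tau_of_z (hx : IsSt D x) (i : Fin D.rank) (hy : y ∈ Fx_z D x ρ) {c : Kˣ →* kˣ}
    (hc : ∀ t : Kˣ, ρ (hE D x (D.simple i) t) (tau_z D x ρ i y) = (c t : k) • tau_z D x ρ i y) :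
    tau_z D x ρ i (tau_z D x ρ i y) = (if c = 1 then -1 else 0 : k) • tau_z D x ρ i y := by
  simp only [tau_tau_z (p := p) hx i hy, hc, ← sum_smul]
  congr 1
  split_ifs with h
  · simp [h, Fintype.card_units, Fintype.card_pos, card_cast_eq_zero_z (K := K) (k := k) (p := p)]
  · exact sum_hom_units_eq_zero ((Units.coeHom k).comp c) fun e => h (MonoidHom.ext fun t => Units.ext (DFunLike.congr_fun e t))

end Cfsg.Agent.H7
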